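import Mathlib
import Cfsg.Agent.Lib.Classical.Orth.Adjust
import Cfsg.Agent.Lib.OreOmega.Fix

/-!
# The plus-type orthogonal group in coordinates `(x, y)`

`Q = x · y`. The unipotent elements, the Levi elements.
-/

set_option autoImplicit false
set_option linter.unusedSectionVars false
set_option linter.unusedSimpArgs false
set_option linter.unusedVariables false

namespace Cfsg.Agent.Lib.OrePlus

open Matrix QuadraticMap Module
open Cfsg.Agent.Lib.Classical.Orth.Basic
open Cfsg.Agent.Lib.Classical.Orth.Models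
open Cfsg.Agent.Lib.Classical.Orth.Adjust
open Cfsg.Agent.Lib.Classical.Orth.Levi
open Cfsg.Agent.Lib.OreOmega (IsAltM isAltM_of_entries)

variable {F : Type*} [Field F] {n : ℕ}

/-- The index type. -/
abbrev IP (n : ℕ) := Fin n ⊕ Fin n

/-- The space. -/
abbrev VP (n : ℕ) (F : Type*) := IP n → F

/-- The vector with coordinates `(x, y)`. -/
def mkP (x y : Fin n → F) : VP n F := Sum.elim x y

/-- Coordinates. -/
def xc (v : VP n F) : Fin n → F := fun i => v (Sum.inl i)
/-- Coordinates. -/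
def yc (v : VP n F) : Fin n → F := fun i => v (Sum.inr i)

@[simp] theorem xc_mkP (x y : Fin n → F) : xc (mkP x y) = x := rfl
@[simp] theorem yc_mkP (x y : Fin n → F) : yc (mkP x y) = y := rfl

theorem mkP_eta (v : VP n F) : mkP (xc v) (yc v) = v := by
  ext k
  rcases k with i | i <;> rfl

theorem vext {a b : VP n F} (h2 : xc a = xc b) (h3 : yc a = yc b) : a = b := by
  rw [← mkP_eta a, ← mkP_eta b, h2, h3]

@[simp] theorem xc_add (a b : VP n F) : xc (a + b) = xc a + xc b := rfl
@[simp] theorem yc_add (a b : VP n F) : yc (a + b) = yc a + yc b := rfl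
@[simp] theorem xc_smul (t : F) (a : VP n F) : xc (t • a) = t • xc a := rfl
@[simp] theorem yc_smul (t : F) (a : VP n F) : yc (t • a) = t • yc a := rfl
@[simp] theorem xc_sub (a b : VP n F) : xc (a - b) = xc a - xc b := rfl
@[simp] theorem yc_sub (a b : VP n F) : yc (a - b) = yc a - yc b := rfl
@[simp] theorem xc_neg (a : VP n F) : xc (- a) = - xc a := rfl
@[simp] theorem yc_neg (a : VP n F) : yc (- a) = - yc a := rfl
@[simp] theorem xc_zero : xc (0 : VP n F) = 0 := rfl
@[simp] theorem yc_zero : yc (0 : VP n F) = 0 := rfl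

theorem mkP_add (x x' y y' : Fin n → F) : mkP x y + mkP x' y' = mkP (x + x') (y + y') := by
  apply vext <;> rfl

theorem mkP_smul (t : F) (x y : Fin n → F) : t • mkP x y = mkP (t • x) (t • y) := by
  apply vext <;> rfl

theorem mkP_zero : mkP (0 : Fin n → F) 0 = 0 := by
  apply vext <;> rfl

theorem QP_apply (v : VP n F) : plusForm n F v = xc v ⬝ᵥ yc v := by
  rw [coe_plusForm_apply]
  rfl

theorem QP_mkP (x y : Fin n → F) : plusForm n F (mkP x y) = x ⬝ᵥ y := by
  rw [QP_apply]
  rfl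

theorem polarP_apply (a b : VP n F) :
    polar (⇑(plusForm n F)) a b = xc a ⬝ᵥ yc b + xc b ⬝ᵥ yc a := by
  simp only [polar, QP_apply, xc_add, yc_add, add_dotProduct, dotProduct_add]
  ring

theorem polarP_mkP (x x' y y' : Fin n → F) :
    polar (⇑(plusForm n F)) (mkP x y) (mkP x' y') = x ⬝ᵥ y' + x' ⬝ᵥ y := polarP_apply _ _

/-- The group. -/
abbrev OP (n : ℕ) (F : Type*) [Field F] := ↥(Cfsg.isometryGroup F (⇑(plusForm n F)))

/-- The matrix of an isometry. -/
abbrev matP (g : OP n F) : Matrix (IP n) (IP n) F := ((g : GL (IP n) F) : Matrix (IP n) (IP n) F)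

theorem injective_of_QP (f : VP n F →ₗ[F] VP n F)
    (hf : ∀ v, plusForm n F (f v) = plusForm n F v) : Function.Injective f := by
  intro a b hab
  have hnd := plusForm_nondegenerate (F := F) n
  have hpol : ∀ v w, polar (⇑(plusForm n F)) (f v) (f w) = polar (⇑(plusForm n F)) v w := by
    intro v w
    simp only [polar]
    rw [← map_add, hf, hf, hf]
  rw [← sub_eq_zero]
  apply hnd.1
  intro w
  rw [polarBilin_apply_apply, ← hpol, map_sub, hab, sub_self]
  exact polar_zero_left (plusForm n F) _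

/-- An isometry from a linear map preserving the form. -/
noncomputable def isoOfLin (f : VP n F →ₗ[F] VP n F)
    (hf : ∀ v, plusForm n F (f v) = plusForm n F v) : OP n F :=
  isoOfEquiv (Q := plusForm n F) (LinearEquiv.ofInjectiveEndo f (injective_of_QP f hf)) (fun v => hf v)

theorem act_isoOfLin (f : VP n F →ₗ[F] VP n F)
    (hf : ∀ v, plusForm n F (f v) = plusForm n F v) (v : VP n F) : act (isoOfLin f hf) v = f v :=
  act_isoOfEquiv _ _ v

section U

/-- The unipotent element fixing `y = 0`, as a linear map. -/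
noncomputable def Ulin (A : Matrix (Fin n) (Fin n) F) : VP n F →ₗ[F] VP n F where
  toFun v := mkP (xc v + A *ᵥ yc v) (yc v)
  map_add' a b := by
    rw [mkP_add]
    congr 1
    simp only [xc_add, yc_add, mulVec_add]
    abel
  map_smul' t a := by
    rw [RingHom.id_apply, mkP_smul]
    congr 1
    simp only [xc_smul, yc_smul, mulVec_smul, smul_add]

/-- The unipotent element fixing `x = 0`, as a linear map. -/
noncomputable def Vlin (A : Matrix (Fin n) (Fin n) F) : VP n F →ₗ[F] VP n F where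
  toFun v := mkP (xc v) (yc v + A *ᵥ xc v)
  map_add' a b := by
    rw [mkP_add]
    congr 1
    simp only [xc_add, yc_add, mulVec_add]
    abel
  map_smul' t a := by
    rw [RingHom.id_apply, mkP_smul]
    congr 1
    simp only [xc_smul, yc_smul, mulVec_smul, smul_add]

theorem Ulin_apply (A : Matrix (Fin n) (Fin n) F) (v : VP n F) : Ulin A v = mkP (xc v + A *ᵥ yc v) (yc v) := rfl
theorem Vlin_apply (A : Matrix (Fin n) (Fin n) F) (v : VP n F) : Vlin A v = mkP (xc v) (yc v + A *ᵥ xc v) := rfl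

theorem QP_Ulin {A : Matrix (Fin n) (Fin n) F} (hA : IsAltM A) (v : VP n F) :
    plusForm n F (Ulin A v) = plusForm n F v := by
  rw [Ulin_apply, QP_mkP, QP_apply, add_dotProduct, hA (yc v), add_zero]

theorem QP_Vlin {A : Matrix (Fin n) (Fin n) F} (hA : IsAltM A) (v : VP n F) :
    plusForm n F (Vlin A v) = plusForm n F v := by
  rw [Vlin_apply, QP_mkP, QP_apply, dotProduct_add, dotProduct_comm (xc v) (A *ᵥ xc v), hA (xc v), add_zero]

/-- The unipotent element fixing `y = 0`. -/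
noncomputable def UU (A : Matrix (Fin n) (Fin n) F) (hA : IsAltM A) : OP n F := isoOfLin (Ulin A) (QP_Ulin hA)
/-- The unipotent element fixing `x = 0`. -/
noncomputable def VVe (A : Matrix (Fin n) (Fin n) F) (hA : IsAltM A) : OP n F := isoOfLin (Vlin A) (QP_Vlin hA)

theorem act_UU (A : Matrix (Fin n) (Fin n) F) (hA : IsAltM A) (v : VP n F) :
    act (UU A hA) v = mkP (xc v + A *ᵥ yc v) (yc v) := act_isoOfLin _ _ v
theorem act_VVe (A : Matrix (Fin n) (Fin n) F) (hA : IsAltM A) (v : VP n F) :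
    act (VVe A hA) v = mkP (xc v) (yc v + A *ᵥ xc v) := act_isoOfLin _ _ v

end U

section Levi

theorem coe_gHom_inv (B : GL (Fin n) F) :
    ((B⁻¹ : GL (Fin n) F) : Matrix (Fin n) (Fin n) F) = (B : Matrix (Fin n) (Fin n) F)⁻¹ :=
  Matrix.coe_units_inv B

theorem act_levi (B : GL (Fin n) F) (v : VP n F) :
    act (gHom B) v = mkP ((B : Matrix (Fin n) (Fin n) F) *ᵥ xc v)
      (((B⁻¹ : GL (Fin n) F) : Matrix (Fin n) (Fin n) F)ᵀ *ᵥ yc v) := by
  have hv : v = Sum.elim (xc v) (yc v) := (mkP_eta v).symm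
  show ((gHom B : OP n F) : GL (IP n) F).val *ᵥ v = _
  rw [gHom_coe, coe_gHom_inv]
  conv_lhs => rw [hv]
  rw [fromBlocks_mulVec]
  simp only [Sum.elim_comp_inl, Sum.elim_comp_inr, zero_mulVec, add_zero, zero_add]
  rfl

theorem E_inv_mul (E : GL (Fin n) F) : (E : Matrix (Fin n) (Fin n) F) * ((E⁻¹ : GL (Fin n) F) : Matrix (Fin n) (Fin n) F) = 1 := by
  rw [← Units.val_mul, mul_inv_cancel]
  rfl

theorem inv_E_mul (E : GL (Fin n) F) : ((E⁻¹ : GL (Fin n) F) : Matrix (Fin n) (Fin n) F) * (E : Matrix (Fin n) (Fin n) F) = 1 := by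
  rw [← Units.val_mul, inv_mul_cancel]
  rfl

end Levi

section Subgroups

/-- The pointwise stabilizer of `y = 0`. -/
def QW (n : ℕ) (F : Type*) [Field F] : Subgroup (OP n F) where
  carrier := {h | ∀ x, act h (mkP x 0) = mkP x 0}
  mul_mem' := by
    rintro a b ha hb
    exact fun x => by rw [act_mul, hb, ha]
  one_mem' := fun x => act_one _
  inv_mem' := by
    rintro a ha x
    conv_lhs => rw [← ha x]
    exact act_inv_act a _

/-- The pointwise stabilizer of `x = 0`. -/
def QT (n : ℕ) (F : Type*) [Field F] : Subgroup (OP n F) where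
  carrier := {h | ∀ y, act h (mkP 0 y) = mkP 0 y}
  mul_mem' := by
    rintro a b ha hb
    exact fun x => by rw [act_mul, hb, ha]
  one_mem' := fun x => act_one _
  inv_mem' := by
    rintro a ha x
    conv_lhs => rw [← ha x]
    exact act_inv_act a _

theorem mem_QW {h : OP n F} : h ∈ QW n F ↔ ∀ x, act h (mkP x 0) = mkP x 0 := Iff.rfl
theorem mem_QT {h : OP n F} : h ∈ QT n F ↔ ∀ y, act h (mkP 0 y) = mkP 0 y := Iff.rfl

theorem UU_mem_QW (A : Matrix (Fin n) (Fin n) F) (hA : IsAltM A) : UU A hA ∈ QW n F := by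
  intro x
  rw [act_UU]
  simp

theorem VVe_mem_QT (A : Matrix (Fin n) (Fin n) F) (hA : IsAltM A) : VVe A hA ∈ QT n F := by
  intro x
  rw [act_VVe]
  simp

theorem levi_conj_mem_QW (B : GL (Fin n) F) {h : OP n F} (hh : h ∈ QW n F) : gHom B * h * (gHom B)⁻¹ ∈ QW n F := by
  intro x
  have e : ∀ (C : GL (Fin n) F) (a : Fin n → F), act (gHom C) (mkP a 0) = mkP ((C : Matrix (Fin n) (Fin n) F) *ᵥ a) 0 := by
    intro C a
    rw [act_levi]
    simp only [xc_mkP, yc_mkP, mulVec_zero]
  rw [act_mul, act_mul, ← map_inv, e, hh, e, mulVec_mulVec, ← Units.val_mul, mul_inv_cancel]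
  simp

theorem levi_conj_mem_QT (B : GL (Fin n) F) {h : OP n F} (hh : h ∈ QT n F) : gHom B * h * (gHom B)⁻¹ ∈ QT n F := by
  intro x
  have e : ∀ (C : GL (Fin n) F) (a : Fin n → F), act (gHom C) (mkP 0 a) = mkP 0 (((C⁻¹ : GL (Fin n) F) : Matrix (Fin n) (Fin n) F)ᵀ *ᵥ a) := by
    intro C a
    rw [act_levi]
    simp only [xc_mkP, yc_mkP, mulVec_zero]
  rw [act_mul, act_mul, ← map_inv, e, hh, e, mulVec_mulVec, inv_inv, ← transpose_mul, ← Units.val_mul, mul_inv_cancel]
  simp

end Subgroups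

section Blocks

/-- The block `W → W`. -/
def blkD (g : OP n F) : Matrix (Fin n) (Fin n) F := fun i j => matP g (Sum.inl i) (Sum.inl j)
/-- The block `W → T`. -/
def blkR (g : OP n F) : Matrix (Fin n) (Fin n) F := fun i j => matP g (Sum.inr i) (Sum.inl j)

theorem act_W (g : OP n F) (x : Fin n → F) :
    act g (mkP x 0) = mkP (blkD g *ᵥ x) (blkR g *ᵥ x) := by
  apply vext
  · ext i
    show (matP g *ᵥ mkP x 0) (Sum.inl i) = (blkD g *ᵥ x) i
    simp [mulVec, dotProduct, Fintype.sum_sum_type, mkP, blkD]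
  · ext i
    show (matP g *ᵥ mkP x 0) (Sum.inr i) = (blkR g *ᵥ x) i
    simp [mulVec, dotProduct, Fintype.sum_sum_type, mkP, blkR]

/-- The block relation from the form. -/
theorem blk_QP (g : OP n F) (x : Fin n → F) : (blkD g *ᵥ x) ⬝ᵥ (blkR g *ᵥ x) = 0 := by
  have h := Q_act g (mkP x 0)
  rw [act_W, QP_mkP, QP_mkP] at h
  simpa using h

/-- The block relation from the polar form. -/
theorem blk_polar (g : OP n F) (x x' : Fin n → F) :
    (blkD g *ᵥ x) ⬝ᵥ (blkR g *ᵥ x') + (blkD g *ᵥ x') ⬝ᵥ (blkR g *ᵥ x) = 0 := by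
  have h := polar_act g (mkP x 0) (mkP x' 0)
  rw [act_W, act_W, polarP_mkP, polarP_mkP] at h
  simpa using h

end Blocks

section Classify

theorem dot_ext {a b : Fin n → F} (h : ∀ x : Fin n → F, x ⬝ᵥ a = x ⬝ᵥ b) : a = b := by
  ext i
  simpa using h (Pi.single i 1)

theorem yc_act_of_fixW {g : OP n F} (hg : g ∈ QW n F) (v : VP n F) : yc (act g v) = yc v := by
  apply dot_ext
  intro x
  have h := polar_act g v (mkP x 0)
  rw [hg x, polarP_apply, polarP_apply] at h
  simpa using h

theorem xc_act_of_fixT {g : OP n F} (hg : g ∈ QT n F) (v : VP n F) : xc (act g v) = xc v := by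
  apply dot_ext
  intro y
  have h := polar_act g v (mkP 0 y)
  rw [hg y, polarP_apply, polarP_apply] at h
  simp only [xc_mkP, yc_mkP, zero_dotProduct, add_zero] at h
  rw [dotProduct_comm y, dotProduct_comm y]
  simpa using h

/-- The classification of `QW`. -/
theorem exists_UU_of_mem {h : OP n F} (hh : h ∈ QW n F) : ∃ A hA, h = UU A hA := by
  classical
  have hy := yc_act_of_fixW hh
  let S : Matrix (Fin n) (Fin n) F := fun i j => xc (act h (mkP 0 (Pi.single j 1))) i
  have hSlin : ∀ y, xc (act h (mkP 0 y)) = S *ᵥ y := by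
    intro y
    have hy' : mkP (0 : Fin n → F) y = ∑ j, y j • mkP (0 : Fin n → F) (Pi.single j 1) := by
      apply vext
      · ext i
        simp [xc, mkP, Finset.sum_apply]
      · ext i
        simp [yc, mkP, Finset.sum_apply, Pi.single_apply]
    rw [hy']
    have hact : ∀ (s : Finset (Fin n)) (w : Fin n → VP n F), act h (∑ j ∈ s, w j) = ∑ j ∈ s, act h (w j) := by
      intro s w
      induction s using Finset.induction_on with
      | empty => simp [act_zero]
      | insert a s ha ih => rw [Finset.sum_insert ha, Finset.sum_insert ha, act_add, ih]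
    rw [hact]
    ext i
    simp only [mulVec, dotProduct, S]
    have : ∀ (s : Finset (Fin n)) (w : Fin n → VP n F), xc (∑ j ∈ s, w j) i = ∑ j ∈ s, xc (w j) i := by
      intro s w
      simp [xc, Finset.sum_apply]
    rw [this]
    refine Finset.sum_congr rfl fun j _ => ?_
    rw [act_smul]
    simp [xc, mul_comm]
  have hT : ∀ y, act h (mkP 0 y) = mkP (S *ᵥ y) y := by
    intro y
    apply vext
    · exact hSlin y
    · have := hy (mkP 0 y)
      simpa using this
  have hAlt : IsAltM S := by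
    intro y
    have h3 := Q_act h (mkP 0 y)
    rw [hT, QP_mkP, QP_mkP] at h3
    simpa using h3
  refine ⟨S, hAlt, ?_⟩
  apply ext_act
  intro v
  have hv : v = mkP (xc v) 0 + mkP 0 (yc v) := by
    rw [mkP_add]
    simp [mkP_eta]
  conv_lhs => rw [hv]
  rw [act_add, hh, hT, mkP_add, act_UU]
  simp

/-- The classification of `QT`. -/
theorem exists_VVe_of_mem {h : OP n F} (hh : h ∈ QT n F) : ∃ A hA, h = VVe A hA := by
  classical
  have hy := xc_act_of_fixT hh
  let S : Matrix (Fin n) (Fin n) F := fun i j => matP h (Sum.inr i) (Sum.inl j)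
  have hSlin : ∀ x, yc (act h (mkP x 0)) = S *ᵥ x := by
    intro x
    have := act_W h x
    rw [this]
    rfl
  have hT : ∀ x, act h (mkP x 0) = mkP x (S *ᵥ x) := by
    intro x
    apply vext
    · have := hy (mkP x 0)
      simpa using this
    · exact hSlin x
  have hAlt : IsAltM S := by
    intro x
    have h3 := Q_act h (mkP x 0)
    rw [hT, QP_mkP, QP_mkP] at h3
    rw [dotProduct_comm]
    simpa using h3
  refine ⟨S, hAlt, ?_⟩
  apply ext_act
  intro v
  have hv : v = mkP (xc v) 0 + mkP 0 (yc v) := by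
    rw [mkP_add]
    simp [mkP_eta]
  conv_lhs => rw [hv]
  rw [act_add, hh, hT, mkP_add, act_VVe]
  simp [add_comm]

/-- A fixed point in `QW`. -/
theorem fpf_QW (D : GL (Fin n) F)
    (hA : ∀ A, IsAltM A → (D : Matrix (Fin n) (Fin n) F) * A * (D : Matrix (Fin n) (Fin n) F)ᵀ = A → A = 0) :
    ∀ q ∈ QW n F, gHom D * q * (gHom D)⁻¹ = q → q = 1 := by
  intro q hq hfix
  obtain ⟨A, hAlt, rfl⟩ := exists_UU_of_mem hq
  have hA0 : A = 0 := by
    apply hA A hAlt
    apply Matrix.ext_of_mulVec_single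
    intro j
    have h1 : act (gHom D * UU A hAlt * (gHom D)⁻¹) (mkP 0 (Pi.single j 1)) = act (UU A hAlt) (mkP 0 (Pi.single j 1)) := by
      rw [hfix]
    rw [act_mul, act_mul, ← map_inv, act_levi, act_UU, act_levi, act_UU] at h1
    simp only [xc_mkP, yc_mkP, mulVec_zero, zero_add, inv_inv] at h1
    have h2 := congrArg xc h1
    simp only [xc_mkP] at h2
    rw [mulVec_mulVec, mulVec_mulVec] at h2
    exact h2
  subst hA0
  apply ext_act
  intro v
  rw [act_UU, act_one]
  simp [mkP_eta]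

/-- A fixed point in `QT`. -/
theorem fpf_QT (B : GL (Fin n) F)
    (hA : ∀ A, IsAltM A → (B : Matrix (Fin n) (Fin n) F)ᵀ * A * (B : Matrix (Fin n) (Fin n) F) = A → A = 0) :
    ∀ q ∈ QT n F, gHom B * q * (gHom B)⁻¹ = q → q = 1 := by
  intro q hq hfix
  obtain ⟨A, hAlt, rfl⟩ := exists_VVe_of_mem hq
  have hA0 : A = 0 := by
    apply hA A hAlt
    apply Matrix.ext_of_mulVec_single
    intro j
    have h1 : act (gHom B * VVe A hAlt * (gHom B)⁻¹) (mkP ((B : Matrix (Fin n) (Fin n) F) *ᵥ (Pi.single j 1)) 0) =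
        act (VVe A hAlt) (mkP ((B : Matrix (Fin n) (Fin n) F) *ᵥ (Pi.single j 1)) 0) := by
      rw [hfix]
    rw [act_mul, act_mul, ← map_inv, act_levi, act_VVe, act_levi, act_VVe] at h1
    simp only [xc_mkP, yc_mkP, mulVec_zero, zero_add, inv_inv] at h1
    have h2 := congrArg yc h1
    simp only [yc_mkP] at h2
    have e3 : ((B⁻¹ : GL (Fin n) F) : Matrix (Fin n) (Fin n) F) *ᵥ ((B : Matrix (Fin n) (Fin n) F) *ᵥ (Pi.single j 1)) = Pi.single j 1 := by
      rw [mulVec_mulVec, inv_E_mul, one_mulVec]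
    rw [e3] at h2
    calc ((B : Matrix (Fin n) (Fin n) F)ᵀ * A * (B : Matrix (Fin n) (Fin n) F)) *ᵥ (Pi.single j 1)
        = (B : Matrix (Fin n) (Fin n) F)ᵀ *ᵥ (A *ᵥ ((B : Matrix (Fin n) (Fin n) F) *ᵥ (Pi.single j 1))) := by
          simp only [mulVec_mulVec, mul_assoc]
      _ = (B : Matrix (Fin n) (Fin n) F)ᵀ *ᵥ (((B⁻¹ : GL (Fin n) F) : Matrix (Fin n) (Fin n) F)ᵀ *ᵥ (A *ᵥ (Pi.single j 1))) := by
          rw [h2]
      _ = A *ᵥ (Pi.single j 1) := by
          rw [mulVec_mulVec, ← transpose_mul, inv_E_mul, transpose_one, one_mulVec]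
  subst hA0
  apply ext_act
  intro v
  rw [act_VVe, act_one]
  simp [mkP_eta]

end Classify

section CellDecomp

/-- The big cell. -/
theorem exists_cell (g : OP n F) (D : GL (Fin n) F)
    (hD : blkD g = (D : Matrix (Fin n) (Fin n) F)) :
    ∃ u ∈ QT n F, ∃ v ∈ QW n F, g = u * gHom D * v := by
  set Di : Matrix (Fin n) (Fin n) F := ((D⁻¹ : GL (Fin n) F) : Matrix (Fin n) (Fin n) F) with hDi
  have e1 : Di * (D : Matrix (Fin n) (Fin n) F) = 1 := inv_E_mul D
  have e2 : (D : Matrix (Fin n) (Fin n) F) * Di = 1 := E_inv_mul D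
  set A := blkR g * Di with hA
  have hAlt : IsAltM A := by
    intro w
    have h3 := blk_QP g (Di *ᵥ w)
    have e3 : (D : Matrix (Fin n) (Fin n) F) *ᵥ (Di *ᵥ w) = w := by
      rw [mulVec_mulVec, e2, one_mulVec]
    have e4 : blkR g *ᵥ (Di *ᵥ w) = A *ᵥ w := by
      rw [mulVec_mulVec]
    rw [hD, e3, e4, dotProduct_comm] at h3
    exact h3
  set u := VVe A hAlt with hu
  set l := gHom D with hl
  have hlW : ∀ x, act l (mkP x 0) = mkP ((D : Matrix (Fin n) (Fin n) F) *ᵥ x) 0 := by
    intro x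
    rw [hl, act_levi]
    simp
  have hmain : ∀ x, act (u * l) (mkP x 0) = act g (mkP x 0) := by
    intro x
    rw [act_mul, hlW, hu, act_VVe, act_W]
    simp only [xc_mkP, yc_mkP, zero_add]
    rw [hD]
    have e4 : A *ᵥ ((D : Matrix (Fin n) (Fin n) F) *ᵥ x) = blkR g *ᵥ x := by
      rw [hA, mulVec_mulVec, mul_assoc, e1, mul_one]
    rw [e4]
  refine ⟨u, VVe_mem_QT A hAlt, (u * l)⁻¹ * g, fun x => ?_, ?_⟩
  · rw [act_mul, ← hmain, act_inv_act]
  · group

/-- Conjugating by an element of `QW` adds a multiple of `R` to `D`. -/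
theorem blkD_conj (g : OP n F) (A : Matrix (Fin n) (Fin n) F) (hA : IsAltM A) (x : Fin n → F) :
    blkD (UU A hA * g * (UU A hA)⁻¹) *ᵥ x = blkD g *ᵥ x + A *ᵥ (blkR g *ᵥ x) := by
  have h1 := act_W (UU A hA * g * (UU A hA)⁻¹) x
  have h3 : (UU A hA)⁻¹ ∈ QW n F := (QW n F).inv_mem (UU_mem_QW A hA)
  rw [act_mul, act_mul, h3 x, act_W, act_UU] at h1
  have h4 := congrArg xc h1
  simp only [yc_mkP, xc_mkP] at h4
  exact h4.symm

end CellDecomp

end Cfsg.Agent.Lib.OrePlus
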