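import Mathlib
import Cfsg.Agent.Lib.OrePlus.Model
import Cfsg.Agent.Lib.OreOmega.Normal

/-!
# The normal form of the `W → W` block
-/

set_option autoImplicit false
set_option linter.unusedSectionVars false
set_option linter.unusedSimpArgs false
set_option linter.unusedVariables false

namespace Cfsg.Agent.Lib.OrePlus

open Matrix QuadraticMap Module
open Cfsg.Agent.Lib.Classical.Orth.Basic
open Cfsg.Agent.Lib.Classical.Orth.Models
open Cfsg.Agent.Lib.Classical.Orth.Adjust
open Cfsg.Agent.Lib.OreOmega (IsAltM isAltM_of_entries dlt exists_rank_form dlt_mulVec_single)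

variable {F : Type*} [Field F] {n : ℕ}

/-- The form of the block. -/
def formP (P : Matrix (Fin n) (Fin n) F) (s : Finset (Fin n)) (N J : Matrix (Fin n) (Fin n) F) :
    Matrix (Fin n) (Fin n) F := fun i j =>
  if j ∉ s then P i j else if i ∉ s then J i j else N i j

/-- The relations satisfied by the data. -/
structure FormD (P : Matrix (Fin n) (Fin n) F) (s : Finset (Fin n)) : Prop where
  diag : ∀ j ∈ s, P j j = 0
  rel : ∀ j k, (if j ∈ s then P j k else 0) + (if k ∈ s then P k j else 0) = 0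

section

variable {P : Matrix (Fin n) (Fin n) F} {s : Finset (Fin n)}

theorem FormD.P0 (h : FormD P s) {j k : Fin n} (hj : j ∈ s) (hk : k ∉ s) : P j k = 0 := by
  have h1 := h.rel j k
  simpa [hj, hk] using h1

theorem FormD.Ps (h : FormD P s) {j k : Fin n} (hj : j ∈ s) (hk : k ∈ s) : P j k = - P k j := by
  have h1 := h.rel j k
  simp only [hj, hk, if_true] at h1
  linear_combination h1

/-- Every form is attained. -/
theorem FormD.exists_params (h : FormD P s) {N : Matrix (Fin n) (Fin n) F} (hN : IsAltM N)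
    (J : Matrix (Fin n) (Fin n) F) :
    ∃ A' : Matrix (Fin n) (Fin n) F, IsAltM A' ∧
      ∀ i j, P i j + (if j ∈ s then A' i j else 0) = formP P s N J i j := by
  classical
  let A' : Matrix (Fin n) (Fin n) F := fun i j =>
    if i ∈ s then
      if j ∈ s then N i j - P i j else -(J j i - P j i)
    else
      if j ∈ s then J i j - P i j else 0
  have hd : ∀ i, A' i i = 0 := by
    intro i
    simp only [A']
    by_cases hi : i ∈ s
    · simp [hi, hN.diag, h.diag i hi]
    · simp [hi]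
  have hskew : ∀ i j, A' i j = - A' j i := by
    intro i j
    simp only [A']
    by_cases hi : i ∈ s <;> by_cases hj : j ∈ s
    · simp only [hi, hj, if_true]
      rw [hN.skew i j, h.Ps hi hj]
      ring
    · simp [hi, hj]
    · simp [hi, hj]
    · simp [hi, hj]
  refine ⟨A', isAltM_of_entries hd hskew, ?_⟩
  intro i j
  simp only [formP, A']
  by_cases hj : j ∈ s
  · by_cases hi : i ∈ s
    · simp only [hj, hi, not_true, if_true, if_false]
      ring
    · simp only [hj, hi, not_true, not_false_iff, if_true, if_false]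
      ring
  · simp [hj]

/-- The determinant of the form. -/
theorem FormD.det_formP (h : FormD P s) (N J : Matrix (Fin n) (Fin n) F) :
    (formP P s N J).det = (toSquareBlockProp N (fun i => i ∈ s)).det *
      (toSquareBlockProp P (fun i => ¬ i ∈ s)).det := by
  classical
  have hz : ∀ i, i ∈ s → ∀ j, ¬ j ∈ s → formP P s N J i j = 0 := by
    intro i hi j hj
    simp only [formP, hj, not_false_iff, if_true]
    exact h.P0 hi hj
  have h1 : toSquareBlockProp (formP P s N J) (fun i => i ∈ s) = toSquareBlockProp N (fun i => i ∈ s) := by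
    ext i j
    show formP P s N J i j = N i j
    simp [formP, i.2, j.2]
  have h2 : toSquareBlockProp (formP P s N J) (fun i => ¬ i ∈ s) = toSquareBlockProp P (fun i => ¬ i ∈ s) := by
    ext i j
    show formP P s N J i j = P i j
    simp [formP, j.2]
  rw [twoBlockTriangular_det' _ (fun i => i ∈ s) hz, h1, h2]
  congr!

/-- The matrix identity of the form. -/
theorem mulVec_form_eq {A' I : Matrix (Fin n) (Fin n) F}
    (hI : ∀ i j, P i j + (if j ∈ s then A' i j else 0) = I i j) (a : Fin n → F) :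
    I *ᵥ a = P *ᵥ a + A' *ᵥ (diagonal (dlt s) *ᵥ a) := by
  classical
  have hd : diagonal (dlt s) *ᵥ a = fun j => dlt s j * a j := by
    ext j
    rw [mulVec_diagonal]
  rw [hd]
  ext i
  simp only [Pi.add_apply]
  simp only [mulVec, dotProduct]
  rw [← Finset.sum_add_distrib]
  refine Finset.sum_congr rfl fun j _ => ?_
  rw [← hI]
  by_cases hj : j ∈ s
  · simp only [hj, if_true, dlt]
    ring
  · simp only [hj, if_false, dlt]
    ring

end

section Data

variable {g : OP n F} {E Cm : GL (Fin n) F} {s : Finset (Fin n)}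

/-- The block `P`. -/
noncomputable def blkP (g : OP n F) (E Cm : GL (Fin n) F) : Matrix (Fin n) (Fin n) F :=
  ((E⁻¹ : GL (Fin n) F) : Matrix (Fin n) (Fin n) F)ᵀ * blkD g * (Cm : Matrix (Fin n) (Fin n) F)

theorem R_Cm (hΔ : (E : Matrix (Fin n) (Fin n) F) * blkR g * (Cm : Matrix (Fin n) (Fin n) F) = diagonal (dlt s)) (a : Fin n → F) :
    blkR g *ᵥ ((Cm : Matrix (Fin n) (Fin n) F) *ᵥ a) = ((E⁻¹ : GL (Fin n) F) : Matrix (Fin n) (Fin n) F) *ᵥ (diagonal (dlt s) *ᵥ a) := by
  rw [← hΔ, mulVec_mulVec, mulVec_mulVec, mul_assoc, ← mul_assoc _ (E : Matrix (Fin n) (Fin n) F), inv_E_mul, one_mul]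

theorem D_Cm (g : OP n F) (E Cm : GL (Fin n) F) (a : Fin n → F) :
    blkD g *ᵥ ((Cm : Matrix (Fin n) (Fin n) F) *ᵥ a) = (E : Matrix (Fin n) (Fin n) F)ᵀ *ᵥ (blkP g E Cm *ᵥ a) := by
  rw [blkP, mulVec_mulVec, mulVec_mulVec, ← mul_assoc, ← mul_assoc, ← transpose_mul, inv_E_mul, transpose_one, one_mul]

theorem dot_E (E : GL (Fin n) F) (a b : Fin n → F) :
    ((E : Matrix (Fin n) (Fin n) F)ᵀ *ᵥ b) ⬝ᵥ (((E⁻¹ : GL (Fin n) F) : Matrix (Fin n) (Fin n) F) *ᵥ a) = b ⬝ᵥ a := by
  rw [dotProduct_comm, dotProduct_mulVec, vecMul_transpose, mulVec_mulVec, E_inv_mul, one_mulVec, dotProduct_comm]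

/-- The relations of the block. -/
theorem formD_of (hΔ : (E : Matrix (Fin n) (Fin n) F) * blkR g * (Cm : Matrix (Fin n) (Fin n) F) = diagonal (dlt s)) :
    FormD (blkP g E Cm) s := by
  classical
  have key : ∀ a, (blkP g E Cm *ᵥ a) ⬝ᵥ (diagonal (dlt s) *ᵥ a) = 0 := by
    intro a
    have h1 := blk_QP g ((Cm : Matrix (Fin n) (Fin n) F) *ᵥ a)
    rwa [D_Cm g E Cm, R_Cm hΔ, dot_E] at h1
  have key2 : ∀ a b, (blkP g E Cm *ᵥ a) ⬝ᵥ (diagonal (dlt s) *ᵥ b) + (blkP g E Cm *ᵥ b) ⬝ᵥ (diagonal (dlt s) *ᵥ a) = 0 := by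
    intro a b
    have h1 := blk_polar g ((Cm : Matrix (Fin n) (Fin n) F) *ᵥ a) ((Cm : Matrix (Fin n) (Fin n) F) *ᵥ b)
    rwa [D_Cm g E Cm, D_Cm g E Cm, R_Cm hΔ, R_Cm hΔ, dot_E, dot_E] at h1
  have e : ∀ j (l : Fin n → F), l ⬝ᵥ (diagonal (dlt s) *ᵥ Pi.single j 1) = if j ∈ s then l j else 0 := by
    intro j l
    rw [dotProduct_comm, dlt_mulVec_single]
  refine ⟨fun j hj => ?_, fun j k => ?_⟩
  · have h1 := key (Pi.single j 1)
    rw [e] at h1
    simpa [hj, mulVec_single] using h1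
  · have h1 := key2 (Pi.single k 1) (Pi.single j 1)
    rw [e, e] at h1
    simpa [mulVec_single] using h1

/-- The lower right block is invertible. -/
theorem det_block_ne (hΔ : (E : Matrix (Fin n) (Fin n) F) * blkR g * (Cm : Matrix (Fin n) (Fin n) F) = diagonal (dlt s)) :
    (toSquareBlockProp (blkP g E Cm) (fun i => ¬ i ∈ s)).det ≠ 0 := by
  classical
  intro h0
  obtain ⟨v, hv, hv0⟩ := Matrix.exists_mulVec_eq_zero_iff.2 h0
  have fd := formD_of (g := g) hΔ
  let a : Fin n → F := fun i => if h : i ∈ s then 0 else v ⟨i, h⟩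
  have ha1 : ∀ i ∈ s, a i = 0 := fun i hi => dif_pos hi
  have ha2 : ∀ i (hi : ¬ i ∈ s), a i = v ⟨i, hi⟩ := fun i hi => dif_neg hi
  have hPa : blkP g E Cm *ᵥ a = 0 := by
    ext j
    simp only [mulVec, dotProduct, Pi.zero_apply]
    by_cases hj : j ∈ s
    · refine Finset.sum_eq_zero fun k _ => ?_
      by_cases hk : k ∈ s
      · rw [ha1 k hk, mul_zero]
      · rw [fd.P0 hj hk, zero_mul]
    · rw [← Fintype.sum_subtype_add_sum_subtype (fun k => k ∈ s)]
      refine (congrArg (· + _) (Finset.sum_eq_zero fun k _ => ?_)).trans ?_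
      · rw [ha1 k k.2, mul_zero]
      · rw [zero_add]
        have h2 := congrFun hv0 ⟨j, hj⟩
        simp only [mulVec, dotProduct, Pi.zero_apply] at h2
        rw [← h2]
        refine Finset.sum_congr rfl fun k _ => ?_
        rw [ha2 k k.2]
        rfl
  have hδa : diagonal (dlt s) *ᵥ a = 0 := by
    ext j
    rw [mulVec_diagonal]
    by_cases hj : j ∈ s
    · simp [ha1 j hj]
    · simp [dlt, hj]
  have h1 := act_W g ((Cm : Matrix (Fin n) (Fin n) F) *ᵥ a)
  rw [D_Cm g E Cm, R_Cm hΔ, hPa, hδa, mulVec_zero, mulVec_zero, mkP_zero] at h1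
  have h3 : mkP ((Cm : Matrix (Fin n) (Fin n) F) *ᵥ a) (0 : Fin n → F) = 0 := by
    have h6 := congrArg (act g⁻¹) h1
    rw [act_inv_act] at h6
    rw [h6]
    exact act_zero _
  have h7 := congrArg xc h3
  simp only [xc_mkP, xc_zero] at h7
  have h8 := congrArg (fun w => ((Cm⁻¹ : GL (Fin n) F) : Matrix (Fin n) (Fin n) F) *ᵥ w) h7
  simp only [mulVec_mulVec, inv_E_mul, one_mulVec, mulVec_zero] at h8
  apply hv
  ext i
  have := congrFun h8 i
  rw [ha2 i i.2] at this
  exact this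

/-- **The conjugate with the prescribed block.** -/
theorem exists_conj_form (hΔ : (E : Matrix (Fin n) (Fin n) F) * blkR g * (Cm : Matrix (Fin n) (Fin n) F) = diagonal (dlt s))
    {N : Matrix (Fin n) (Fin n) F} (hN : IsAltM N) (J : Matrix (Fin n) (Fin n) F) :
    ∃ h ∈ QW n F, blkD (h * g * h⁻¹) =
      (E : Matrix (Fin n) (Fin n) F)ᵀ * formP (blkP g E Cm) s N J * ((Cm⁻¹ : GL (Fin n) F) : Matrix (Fin n) (Fin n) F) := by
  classical
  obtain ⟨A', hA', hI⟩ := (formD_of (g := g) hΔ).exists_params hN J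
  set EE : Matrix (Fin n) (Fin n) F := (E : Matrix (Fin n) (Fin n) F) with hEE
  let A : Matrix (Fin n) (Fin n) F := EEᵀ * A' * EE
  have hAy : ∀ y, A *ᵥ y = EEᵀ *ᵥ (A' *ᵥ (EE *ᵥ y)) := by
    intro y
    simp only [A, mulVec_mulVec, mul_assoc]
  have hAlt : IsAltM A := by
    intro y
    rw [hAy, mulVec_transpose, ← dotProduct_mulVec]
    exact hA' _
  refine ⟨UU A hAlt, UU_mem_QW A hAlt, ?_⟩
  have key : ∀ a : Fin n → F, blkD (UU A hAlt * g * (UU A hAlt)⁻¹) *ᵥ ((Cm : Matrix (Fin n) (Fin n) F) *ᵥ a) =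
      (EEᵀ * formP (blkP g E Cm) s N J * ((Cm⁻¹ : GL (Fin n) F) : Matrix (Fin n) (Fin n) F)) *ᵥ ((Cm : Matrix (Fin n) (Fin n) F) *ᵥ a) := by
    intro a
    have hR : (EEᵀ * formP (blkP g E Cm) s N J * ((Cm⁻¹ : GL (Fin n) F) : Matrix (Fin n) (Fin n) F)) *ᵥ ((Cm : Matrix (Fin n) (Fin n) F) *ᵥ a) =
        EEᵀ *ᵥ (formP (blkP g E Cm) s N J *ᵥ a) := by
      rw [mulVec_mulVec, mulVec_mulVec, mul_assoc, mul_assoc, inv_E_mul, mul_one]
    rw [blkD_conj, hR, mulVec_form_eq hI a, D_Cm g E Cm, R_Cm hΔ]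
    set w := diagonal (dlt s) *ᵥ a with hw
    have hEw : EE *ᵥ (((E⁻¹ : GL (Fin n) F) : Matrix (Fin n) (Fin n) F) *ᵥ w) = w := by
      rw [mulVec_mulVec, hEE, E_inv_mul, one_mulVec]
    rw [hAy, hEw, mulVec_add]
  apply Matrix.ext_of_mulVec_single
  intro j
  have h3 := key (((Cm⁻¹ : GL (Fin n) F) : Matrix (Fin n) (Fin n) F) *ᵥ Pi.single j 1)
  rwa [mulVec_mulVec (Pi.single j 1) (Cm : Matrix (Fin n) (Fin n) F), E_inv_mul, one_mulVec] at h3

end Data

section Alt

variable {s : Finset (Fin n)}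

/-- An alternating matrix, invertible on a set of indices of even size. -/
theorem exists_alt_on (he : Even s.card) : ∃ N : Matrix (Fin n) (Fin n) F, IsAltM N ∧
    (toSquareBlockProp N (fun i => i ∈ s)).det ≠ 0 := by
  classical
  obtain ⟨t, ht⟩ := he
  have hcard : Fintype.card {i // i ∈ s} = Fintype.card (Fin t ⊕ Fin t) := by
    simp [ht]
  let e : {i // i ∈ s} ≃ (Fin t ⊕ Fin t) := Fintype.equivOfCardEq hcard
  let Js : Matrix (Fin t ⊕ Fin t) (Fin t ⊕ Fin t) F := Matrix.J (Fin t) F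
  have hJd : ∀ k, Js k k = 0 := by
    intro k
    rcases k with k | k <;> simp [Js, Matrix.J]
  have hJs : ∀ k l, Js k l = - Js l k := by
    intro k l
    have h1 : (Matrix.J (Fin t) F)ᵀ k l = (-(Matrix.J (Fin t) F)) k l := by
      rw [Matrix.J_transpose]
    rw [transpose_apply, neg_apply] at h1
    have h2 : Js l k = - Js k l := h1
    rw [h2, neg_neg]
  let N : Matrix (Fin n) (Fin n) F := fun i j =>
    if h : i ∈ s ∧ j ∈ s then Js (e ⟨i, h.1⟩) (e ⟨j, h.2⟩) else 0
  refine ⟨N, isAltM_of_entries ?_ ?_, ?_⟩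
  · intro i
    simp only [N]
    split_ifs with h
    · exact hJd _
    · rfl
  · intro i j
    simp only [N]
    by_cases hi : i ∈ s <;> by_cases hj : j ∈ s
    · simp only [hi, hj, and_self, dif_pos]
      exact hJs _ _
    · simp [hi, hj]
    · simp [hi, hj]
    · simp [hi, hj]
  · have h1 : toSquareBlockProp N (fun i => i ∈ s) = Js.submatrix e e := by
      ext i j
      show N i j = Js (e i) (e j)
      simp only [N]
      rw [dif_pos ⟨i.2, j.2⟩]
    rw [h1, det_submatrix_equiv_self]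
    intro h0
    have h2 := congrArg Matrix.det (Matrix.J_squared (Fin t) F)
    rw [det_mul, show (Matrix.J (Fin t) F).det = Js.det from rfl, h0, mul_zero, det_neg] at h2
    simp at h2

/-- Scaling an alternating matrix. -/
def scaleM (d : Fin n → F) (N : Matrix (Fin n) (Fin n) F) : Matrix (Fin n) (Fin n) F := fun i j => d i * N i j * d j

theorem isAltM_scaleM (d : Fin n → F) {N : Matrix (Fin n) (Fin n) F} (hN : IsAltM N) : IsAltM (scaleM d N) := by
  refine isAltM_of_entries (fun i => ?_) (fun i j => ?_)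
  · simp [scaleM, hN.diag]
  · simp only [scaleM]
    rw [hN.skew i j]
    ring

theorem det_block_scaleM (d : Fin n → F) (N : Matrix (Fin n) (Fin n) F) :
    (toSquareBlockProp (scaleM d N) (fun i => i ∈ s)).det =
      (∏ i ∈ s, d i) ^ 2 * (toSquareBlockProp N (fun i => i ∈ s)).det := by
  classical
  have h1 : toSquareBlockProp (scaleM d N) (fun i => i ∈ s) =
      diagonal (fun i : {i // i ∈ s} => d i) * toSquareBlockProp N (fun i => i ∈ s) *
        diagonal (fun i : {i // i ∈ s} => d i) := by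
    ext i j
    simp [toSquareBlockProp, scaleM, diagonal_mul, mul_diagonal]
  rw [h1, det_mul, det_mul, det_diagonal]
  have h2 : ∏ i : {i // i ∈ s}, d i = ∏ i ∈ s, d i :=
    (Finset.prod_subtype s (fun _ => Iff.rfl) (fun i => d i)).symm
  rw [h2]
  ring

end Alt

end Cfsg.Agent.Lib.OrePlus
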