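import Mathlib
import Cfsg.Agent.Lib.OrePlus.Normal

/-!
# Reaching determinant one, nonscalar
-/

set_option autoImplicit false
set_option linter.unusedSectionVars false
set_option linter.unusedSimpArgs false
set_option linter.unusedVariables false

namespace Cfsg.Agent.Lib.OrePlus

open Matrix QuadraticMap Module
open Cfsg.Agent.Lib.Classical.Orth.Basic
open Cfsg.Agent.Lib.Classical.Orth.Models
open Cfsg.Agent.Lib.Classical.Orth.Adjust
open Cfsg.Agent.Lib.OreOmega (IsAltM isAltM_of_entries dlt exists_rank_form dlt_mulVec_single)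

variable {F : Type*} [Field F] {n : ℕ}

theorem transvection_T (a b : Fin n) (c : F) :
    (Matrix.transvection a b c)ᵀ = Matrix.transvection b a c := by
  simp [Matrix.transvection, transpose_add, transpose_one, transpose_single]

theorem isAltM_conj {N : Matrix (Fin n) (Fin n) F} (hN : IsAltM N) (C : Matrix (Fin n) (Fin n) F) :
    IsAltM (C * N * Cᵀ) := by
  intro y
  rw [← mulVec_mulVec, ← mulVec_mulVec, dotProduct_comm, dotProduct_mulVec, ← mulVec_transpose, dotProduct_comm]
  exact hN _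

/-- If two elements of the family are scalars, the forms are proportional. -/
theorem scalar_pair {EE Ci F₁ F₂ : Matrix (Fin n) (Fin n) F} (hEE : EE.det ≠ 0) (hCi : Ci.det ≠ 0) {a b : F}
    (h1 : EE * F₁ * Ci = a • 1) (h2 : EE * F₂ * Ci = b • 1) : b • F₁ = a • F₂ := by
  have h3 : EE * (b • F₁ - a • F₂) * Ci = 0 := by
    rw [mul_sub, sub_mul, mul_smul_comm, mul_smul_comm, smul_mul_assoc, smul_mul_assoc, h1, h2, smul_smul, smul_smul,
      mul_comm, sub_self]
  have h4 : b • F₁ - a • F₂ = EE⁻¹ * (EE * (b • F₁ - a • F₂) * Ci) * Ci⁻¹ := by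
    have e1 : EE⁻¹ * EE = 1 := Matrix.nonsing_inv_mul _ (isUnit_iff_ne_zero.2 hEE)
    have e2 : Ci * Ci⁻¹ = 1 := Matrix.mul_nonsing_inv _ (isUnit_iff_ne_zero.2 hCi)
    calc b • F₁ - a • F₂ = (EE⁻¹ * EE) * (b • F₁ - a • F₂) * (Ci * Ci⁻¹) := by
          rw [e1, e2, one_mul, mul_one]
      _ = _ := by simp only [mul_assoc]
  rw [h3] at h4
  simp only [mul_zero, zero_mul] at h4
  exact sub_eq_zero.1 h4

/-- **The normal form.** -/
theorem exists_normal (hn : 4 ≤ n) {g : OP n F} (hR : blkR g ≠ 0)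
    (heven : ∀ (E Cm : GL (Fin n) F) (s : Finset (Fin n)),
      (E : Matrix (Fin n) (Fin n) F) * blkR g * (Cm : Matrix (Fin n) (Fin n) F) = diagonal (dlt s) → Even s.card)
    (hsq : ∀ h ∈ QW n F, ∀ D : GL (Fin n) F, blkD (h * g * h⁻¹) = (D : Matrix (Fin n) (Fin n) F) →
      IsSquare (D : Matrix (Fin n) (Fin n) F).det) :
    ∃ h ∈ QW n F, ∃ D : GL (Fin n) F, blkD (h * g * h⁻¹) = (D : Matrix (Fin n) (Fin n) F) ∧
      (D : Matrix (Fin n) (Fin n) F).det = 1 ∧ ¬ ∃ a : F, (D : Matrix (Fin n) (Fin n) F) = a • 1 := by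
  classical
  haveI : NeZero n := ⟨by omega⟩
  obtain ⟨E, Cm, s, hΔ⟩ := exists_rank_form (blkR g)
  have hs : s.Nonempty := by
    by_contra hne
    rw [Finset.not_nonempty_iff_eq_empty] at hne
    apply hR
    have h0 : diagonal (dlt (∅ : Finset (Fin n))) = (0 : Matrix (Fin n) (Fin n) F) := by
      ext i j
      simp [diagonal, dlt]
    rw [hne, h0] at hΔ
    have h1 : blkR g = ((E⁻¹ : GL (Fin n) F) : Matrix (Fin n) (Fin n) F) *
        ((E : Matrix (Fin n) (Fin n) F) * blkR g * (Cm : Matrix (Fin n) (Fin n) F)) *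
        ((Cm⁻¹ : GL (Fin n) F) : Matrix (Fin n) (Fin n) F) := by
      calc blkR g = (((E⁻¹ : GL (Fin n) F) : Matrix (Fin n) (Fin n) F) * (E : Matrix (Fin n) (Fin n) F)) * blkR g *
            ((Cm : Matrix (Fin n) (Fin n) F) * ((Cm⁻¹ : GL (Fin n) F) : Matrix (Fin n) (Fin n) F)) := by
            rw [inv_E_mul, E_inv_mul, one_mul, mul_one]
        _ = _ := by simp only [mul_assoc]
    rw [h1, hΔ]
    simp
  have he := heven E Cm s hΔ
  have fd := formD_of (g := g) hΔ
  have hblock := det_block_ne (g := g) hΔ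
  set P := blkP g E Cm with hP
  set EE : Matrix (Fin n) (Fin n) F := (E : Matrix (Fin n) (Fin n) F)ᵀ with hEE
  set Ci : Matrix (Fin n) (Fin n) F := ((Cm⁻¹ : GL (Fin n) F) : Matrix (Fin n) (Fin n) F) with hCi
  have hEE0 : EE.det ≠ 0 := by
    rw [hEE, det_transpose]
    exact isUnit_iff_ne_zero.1 ((Matrix.isUnit_iff_isUnit_det _).1 E.isUnit)
  have hCi0 : Ci.det ≠ 0 :=
    isUnit_iff_ne_zero.1 ((Matrix.isUnit_iff_isUnit_det _).1 (Cm⁻¹).isUnit)
  obtain ⟨N₀, hN₀, hdetN₀⟩ := exists_alt_on (F := F) he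
  have hIne : ∀ N J : Matrix (Fin n) (Fin n) F, (toSquareBlockProp N (fun i => i ∈ s)).det ≠ 0 →
      (formP P s N J).det ≠ 0 := by
    intro N J hN
    rw [fd.det_formP]
    exact mul_ne_zero hN hblock
  -- the first form
  obtain ⟨h₀, hh₀, hD₀⟩ := exists_conj_form (g := g) hΔ hN₀ 0
  have hdet₀ : (EE * formP P s N₀ 0 * Ci).det ≠ 0 := by
    rw [det_mul, det_mul]
    exact mul_ne_zero (mul_ne_zero hEE0 (hIne _ _ hdetN₀)) hCi0
  obtain ⟨t, ht⟩ := hsq h₀ hh₀ (Matrix.GeneralLinearGroup.mkOfDetNeZero _ hdet₀) hD₀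
  have ht' : (EE * formP P s N₀ 0 * Ci).det = t * t := ht
  have ht0 : t ≠ 0 := by
    rintro rfl
    exact hdet₀ (by rw [ht', mul_zero])
  set j₀ := s.min' hs with hj₀def
  have hj₀ : j₀ ∈ s := s.min'_mem hs
  let d : Fin n → F := Function.update (fun _ => 1) j₀ t⁻¹
  have hd : ∏ i ∈ s, d i = t⁻¹ := by
    rw [Finset.prod_update_of_mem hj₀]
    simp
  set N₁ := scaleM d N₀ with hN₁def
  have hN₁ : IsAltM N₁ := isAltM_scaleM d hN₀
  have hblock₁ : (toSquareBlockProp N₁ (fun i => i ∈ s)).det = (t⁻¹) ^ 2 * (toSquareBlockProp N₀ (fun i => i ∈ s)).det := by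
    rw [hN₁def, det_block_scaleM, hd]
  have hdetN₁ : (toSquareBlockProp N₁ (fun i => i ∈ s)).det ≠ 0 := by
    rw [hblock₁]
    exact mul_ne_zero (pow_ne_zero _ (inv_ne_zero ht0)) hdetN₀
  have hdet₁ : ∀ J, (EE * formP P s N₁ J * Ci).det = 1 := by
    intro J
    have h5 : EE.det * (formP P s N₀ 0).det * Ci.det = t * t := by
      rw [← ht', det_mul, det_mul]
    rw [det_mul, det_mul, fd.det_formP, hblock₁]
    rw [fd.det_formP] at h5
    field_simp at h5 ⊢
    linear_combination h5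
  have h10 : (1 : F) ≠ 0 := one_ne_zero
  -- the common step: the nonscalar one of two forms
  suffices hsuff : ∃ N J : Matrix (Fin n) (Fin n) F, IsAltM N ∧ (EE * formP P s N J * Ci).det = 1 ∧
      ¬ ∃ a : F, EE * formP P s N J * Ci = a • 1 by
    obtain ⟨N, J, hN, hdet, hns⟩ := hsuff
    obtain ⟨h, hh, hD⟩ := exists_conj_form (g := g) hΔ hN J
    refine ⟨h, hh, Matrix.GeneralLinearGroup.mkOfDetNeZero _ (by rw [hdet]; exact h10), hD, hdet, ?_⟩
    rintro ⟨a, ha⟩
    exact hns ⟨a, ha⟩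
  by_cases hsc : ∃ a : F, EE * formP P s N₁ 0 * Ci = a • 1
  swap
  · exact ⟨N₁, 0, hN₁, hdet₁ 0, hsc⟩
  obtain ⟨a, ha⟩ := hsc
  have ha0 : a ≠ 0 := by
    rintro rfl
    have := hdet₁ 0
    rw [ha, zero_smul, det_zero] at this
    exact zero_ne_one this
  by_cases hsu : ∃ j₁, j₁ ∉ s
  · -- changing an entry outside `s`
    obtain ⟨j₁, hj₁⟩ := hsu
    let J₂ : Matrix (Fin n) (Fin n) F := fun i j => if i = j₁ ∧ j = j₀ then 1 else 0
    refine ⟨N₁, J₂, hN₁, hdet₁ _, ?_⟩
    rintro ⟨b, hb⟩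
    have h3 := scalar_pair hEE0 hCi0 ha hb
    -- the column of a different index
    obtain ⟨k, hk⟩ : ∃ k : Fin n, k ≠ j₀ := by
      by_contra hcon
      push Not at hcon
      have h3 := hcon ⟨0, by omega⟩
      have h4 := hcon ⟨1, by omega⟩
      have : (⟨0, by omega⟩ : Fin n) = ⟨1, by omega⟩ := h3.trans h4.symm
      simp [Fin.ext_iff] at this
    have hsame : ∀ i, formP P s N₁ J₂ i k = formP P s N₁ 0 i k := by
      intro i
      simp only [formP]
      by_cases hks : k ∉ s
      · simp [hks]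
      · by_cases his : i ∉ s
        · simp [hks, his, J₂, hk]
        · simp [hks, his]
    have hcolk : ∃ i, formP P s N₁ 0 i k ≠ 0 := by
      by_contra hcon
      push Not at hcon
      have h5 := hIne N₁ 0 hdetN₁
      exact h5 (det_eq_zero_of_column_eq_zero k hcon)
    obtain ⟨i, hi⟩ := hcolk
    have hab : b = a := by
      have h4 := congrFun (congrFun h3 i) k
      simp only [Matrix.smul_apply, smul_eq_mul, hsame] at h4
      exact mul_right_cancel₀ hi h4
    subst hab
    have h4 := congrFun (congrFun h3 j₁) j₀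
    simp only [Matrix.smul_apply, smul_eq_mul] at h4
    have h5 := mul_left_cancel₀ ha0 h4
    simp [formP, hj₀, hj₁, J₂] at h5
  · -- all indices are in `s`
    push Not at hsu
    have hform : ∀ N J : Matrix (Fin n) (Fin n) F, formP P s N J = N := by
      intro N J
      ext i j
      simp [formP, hsu i, hsu j]
    rw [hform] at ha
    obtain ⟨β, j, hβj⟩ : ∃ β j, N₁ β j ≠ 0 := by
      by_contra hcon
      push Not at hcon
      have h5 := hIne N₁ 0 hdetN₁
      rw [hform] at h5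
      exact h5 (det_eq_zero_of_column_eq_zero ⟨0, by omega⟩ (fun i => hcon _ _))
    have hjβ : j ≠ β := by
      rintro rfl
      exact hβj (hN₁.diag _)
    obtain ⟨α, hαβ, hαj⟩ : ∃ α : Fin n, α ≠ β ∧ α ≠ j := by
      by_contra hcon
      push Not at hcon
      have h1 : (Finset.univ : Finset (Fin n)) ⊆ {β, j} := by
        intro x _
        by_cases hx : x = β
        · simp [hx]
        · simp [hcon x hx]
      have h2 := Finset.card_le_card h1
      have h3 : ({β, j} : Finset (Fin n)).card ≤ 2 := Finset.card_le_two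
      simp at h2
      omega
    let C := Matrix.transvection α β (1 : F)
    have hCT : Cᵀ = Matrix.transvection β α (1 : F) := transvection_T _ _ _
    set N₂ := C * N₁ * Cᵀ with hN₂def
    have hN₂ : IsAltM N₂ := isAltM_conj hN₁ C
    have hdetC : C.det = 1 := Matrix.det_transvection_of_ne _ _ hαβ _
    have hdetCT : (Cᵀ).det = 1 := by rw [det_transpose, hdetC]
    refine ⟨N₂, 0, hN₂, ?_, ?_⟩
    · have h3 := hdet₁ 0
      rw [hform] at h3 ⊢
      rw [det_mul, det_mul] at h3 ⊢
      rw [hN₂def, det_mul, det_mul, hdetC, hdetCT, one_mul, mul_one]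
      exact h3
    · rintro ⟨b, hb⟩
      rw [hform] at hb
      have h3 := scalar_pair hEE0 hCi0 ha hb
      have h4 : N₂ β j = N₁ β j := by
        rw [hN₂def, hCT, Matrix.mul_transvection_apply_of_ne _ _ _ _ hαj.symm, Matrix.transvection_mul_apply_of_ne _ _ _ _ hαβ.symm]
      have h5 : N₂ α j = N₁ α j + N₁ β j := by
        rw [hN₂def, hCT, Matrix.mul_transvection_apply_of_ne _ _ _ _ hαj.symm, Matrix.transvection_mul_apply_same, one_mul]
      have h6 := congrFun (congrFun h3 β) j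
      simp only [Matrix.smul_apply, smul_eq_mul, h4] at h6
      have hab : b = a := mul_right_cancel₀ hβj h6
      subst hab
      have h7 := congrFun (congrFun h3 α) j
      simp only [Matrix.smul_apply, smul_eq_mul, h5] at h7
      have h8 := mul_left_cancel₀ ha0 h7
      apply hβj
      linear_combination -h8

end Cfsg.Agent.Lib.OrePlus
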