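import Mathlib
import Cfsg.Agent.Lib.OrePlus.Model
import Cfsg.Agent.Lib.OreOmega.Position

/-!
# An element moving the standard maximal singular subspace in a suitable conjugate
-/

set_option autoImplicit false
set_option linter.unusedSectionVars false
set_option linter.unusedSimpArgs false
set_option linter.unusedVariables false

namespace Cfsg.Agent.Lib.OrePlus

open Matrix QuadraticMap Module
open Cfsg.Agent.Lib.Classical.Orth.Basic
open Cfsg.Agent.Lib.Classical.Orth.Models
open Cfsg.Agent.Lib.Classical.Orth.Adjust
open Cfsg.Agent.Lib.Classical.Orth.Classes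
open Cfsg.Agent.Lib.Classical.Orth.Simple
open Cfsg.Agent.Lib.Classical.Orth.Center
open Cfsg.Agent.Lib.OreOmega (exists_iso_family' exists_polar_sep)

variable {F : Type*} [Field F] [Fintype F] {n : ℕ}

/-- The vectors of `W`. -/
abbrev eV (n : ℕ) (F : Type*) [Field F] (j : Fin n) : VP n F := mkP (Pi.single j 1) 0

theorem blkR_eq_polar (g : OP n F) (i j : Fin n) :
    blkR g i j = polar (⇑(plusForm n F)) (act g (eV n F j)) (eV n F i) := by
  rw [act_W, polarP_mkP]
  simp [mulVec_single]

theorem blkR_conj (g k : OP n F) (i j : Fin n) :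
    blkR (k⁻¹ * g * k) i j = polar (⇑(plusForm n F)) (act g (act k (eV n F j))) (act k (eV n F i)) := by
  rw [blkR_eq_polar, act_mul, act_mul, polar_act_left, inv_inv]

/-- **Position.** -/
theorem exists_conj_R_ne (hn : 3 ≤ n) (g : OP n F) (hg : ¬ ∃ a : F, ∀ x, act g x = a • x) :
    ∃ k : OP n F, blkR (k⁻¹ * g * k) ≠ 0 := by
  classical
  have hnd := plusForm_nondegenerate (F := F) n
  have hcard : Fintype.card (IP n) = 2 * n := card_plus n
  have hn5 : 5 ≤ Fintype.card (IP n) := by
    rw [hcard]
    omega
  -- a singular vector which is not an eigenvector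
  obtain ⟨z, hz, hQz, hout⟩ : ∃ z, z ≠ 0 ∧ plusForm n F z = 0 ∧ act g z ∉ Submodule.span F {z} := by
    by_contra hcon
    push Not at hcon
    have hfix : ∀ L : SingLine (plusForm n F), g • L = L := by
      intro L
      obtain ⟨z, hz, hQz, rfl⟩ := exists_line L
      apply Subtype.ext
      rw [coe_smul]
      apply gMap_eq_of_le
      intro x hx
      obtain ⟨t, rfl⟩ := Submodule.mem_span_singleton.1 hx
      rw [act_smul]
      exact Submodule.smul_mem _ _ (hcon z hz hQz)
    exact hg (scalar_of_fix hnd hn5 hfix)
  by_cases hc1 : polar (⇑(plusForm n F)) (act g z) z = 0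
  · -- two orthogonal singular vectors
    obtain ⟨w, hw1, hw2⟩ := exists_polar_sep hnd hout
    set a' := act g z with ha'
    have hQa' : plusForm n F a' = 0 := by rw [ha', Q_act, hQz]
    set b := w - (plusForm n F w) • a' with hb
    have hQb : plusForm n F b = 0 := by
      rw [hb, Q_sub, Q_smul, hQa', polar_smul_right', polar_comm, hw2]
      ring
    have hzb : polar (⇑(plusForm n F)) z b = 0 := by
      rw [hb, polar_sub_right, polar_smul_right', hw1, polar_comm _ z a', hc1]
      ring
    have hab : polar (⇑(plusForm n F)) a' b = 1 := by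
      rw [hb, polar_sub_right, polar_smul_right', hw2, polar_self_eq, hQa']
      ring
    let i₀ : Fin n := ⟨0, by omega⟩
    let i₁ : Fin n := ⟨1, by omega⟩
    have hli : LinearIndependent F ![eV n F i₀, eV n F i₁] := by
      rw [LinearIndependent.pair_iff]
      intro s t hst
      have h3 := congrFun (congrArg xc hst) i₀
      have h4 := congrFun (congrArg xc hst) i₁
      have hne : i₀ ≠ i₁ := by simp [i₀, i₁, Fin.ext_iff]
      simp [hne, hne.symm] at h3 h4
      exact ⟨h3, h4⟩
    have hli' : LinearIndependent F ![z, b] := by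
      rw [LinearIndependent.pair_iff]
      intro s t hst
      have h3 := congrArg (polar (⇑(plusForm n F)) a') hst
      rw [polar_add_right, polar_smul_right', polar_smul_right', hc1, hab] at h3
      have h5 : polar (⇑(plusForm n F)) a' 0 = 0 := polar_zero_right _ _
      rw [h5] at h3
      have ht : t = 0 := by linear_combination h3
      subst ht
      rw [zero_smul, add_zero] at hst
      exact ⟨(smul_eq_zero.1 hst).resolve_right hz, rfl⟩
    obtain ⟨k, hk⟩ := exists_iso_family' hnd ![eV n F i₀, eV n F i₁] ![z, b] hli hli' (by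
      intro t
      simp only [Fin.sum_univ_two, Matrix.cons_val_zero, Matrix.cons_val_one, Matrix.cons_val]
      have e1 : ∀ a : Fin n → F, plusForm n F (mkP a 0) = 0 := by
        intro a
        rw [QP_mkP]
        simp
      rw [Q_add, Q_smul, Q_smul, polar_smul_left', polar_smul_right', e1, e1, polarP_mkP]
      rw [Q_add, Q_smul, Q_smul, polar_smul_left', polar_smul_right', hQz, hQb, hzb]
      simp)
    refine ⟨k, fun h0 => ?_⟩
    have h3 := blkR_conj g k i₁ i₀
    have h4 := hk 0
    have h5 := hk 1
    simp only [Matrix.cons_val_zero, Matrix.cons_val_one, Matrix.cons_val] at h4 h5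
    rw [h0, h4, h5, ← ha', hab] at h3
    exact zero_ne_one h3
  · -- one vector suffices
    let i₀ : Fin n := ⟨0, by omega⟩
    have hli : LinearIndependent F ![eV n F i₀] := by
      rw [linearIndependent_unique_iff]
      intro h0
      have h3 := congrFun (congrArg xc h0) i₀
      simp at h3
    have hli' : LinearIndependent F ![z] := by
      rw [linearIndependent_unique_iff]
      exact hz
    obtain ⟨k, hk⟩ := exists_iso_family' hnd ![eV n F i₀] ![z] hli hli' (by
      intro t
      simp only [Fin.sum_univ_one, Matrix.cons_val_zero]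
      rw [Q_smul, Q_smul, hQz, QP_mkP]
      simp)
    refine ⟨k, fun h0 => ?_⟩
    have h3 := blkR_conj g k i₀ i₀
    have h4 := hk 0
    simp only [Matrix.cons_val_zero] at h4
    rw [h0, h4] at h3
    exact hc1 h3.symm

end Cfsg.Agent.Lib.OrePlus
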