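import Mathlib
import Cfsg.Agent.Lib.OreOmega.LevFactor

/-!
# The factorization `T = B D⁻¹` over every field
-/

set_option autoImplicit false
set_option linter.unusedSimpArgs false
set_option linter.unusedVariables false
set_option linter.unusedSectionVars false

open Polynomial Module

namespace Cfsg.Agent.Lib.OrePlus

open Cfsg.Agent.Lib.Linalg.Lev
open Cfsg.Agent.Lib.OreOmega

universe u v

variable {F : Type u} [Field F]

section ChainDef

variable {E : Type v} [AddCommGroup E] [Module F E]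

/-- Chain data in dimension at least three, with a further covector and vector. -/
theorem exists_chain3 [FiniteDimensional F E] (X : E →ₗ[F] E) (z : E)
    (hgen : ∀ x, ∃ g : F[X], aeval X g z = x) (hm3 : 3 ≤ finrank F E) :
    ∃ (σ : E →ₗ[F] E) (ω ϖ : E →ₗ[F] F) (c e : E), Chain X σ ω ϖ c e ∧ ϖ c = 0 ∧
      ∃ (ϖ₂ : E →ₗ[F] F) (e₂ : E), (∀ x, ϖ₂ (σ x) = ϖ x) ∧ ϖ₂ c = 0 ∧ ϖ₂ e₂ = 1 ∧ ϖ e₂ = 0 ∧ ω e₂ = 0 := by
  classical
  have hm : 0 < finrank F E := by omega
  have hc := isCyc_charpoly hgen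
  set m := finrank F E with hmdef
  let b : Basis (Fin m) F E := hc.basis
  have hb : ∀ k : Fin m, b k = (X ^ (k : ℕ)) z := hc.basis_apply
  let i₀ : Fin m := ⟨0, hm⟩
  let l : Fin m := ⟨m - 1, by omega⟩
  let l₂ : Fin m := ⟨m - 2, by omega⟩
  let σ : E →ₗ[F] E := b.constr F (fun k : Fin m => if h : (k : ℕ) = 0 then (0 : E) else b ⟨k - 1, by omega⟩)
  let up : E →ₗ[F] E := b.constr F (fun k : Fin m => if h : (k : ℕ) + 1 < m then b ⟨k + 1, h⟩ else 0)
  have hσ0 : ∀ k : Fin m, (k : ℕ) = 0 → σ (b k) = 0 := by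
    intro k hk
    change (b.constr F _) (b k) = 0
    rw [Basis.constr_basis, dif_pos hk]
  have hσ1 : ∀ (k : Fin m) (h : (k : ℕ) + 1 < m), σ (b ⟨k + 1, h⟩) = b k := by
    intro k h
    change (b.constr F _) (b _) = _
    rw [Basis.constr_basis, dif_neg (by simp)]
    simp
  have hup1 : ∀ (k : Fin m) (h : (k : ℕ) + 1 < m), up (b k) = b ⟨k + 1, h⟩ := by
    intro k h
    change (b.constr F _) (b _) = _
    rw [Basis.constr_basis, dif_pos h]
  have hup0 : ∀ (k : Fin m), ¬ ((k : ℕ) + 1 < m) → up (b k) = 0 := by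
    intro k h
    change (b.constr F _) (b _) = _
    rw [Basis.constr_basis, dif_neg h]
  have hsucc : ∀ (k : Fin m), (k : ℕ) ≠ 0 → ∃ j : Fin m, ∃ h : (j : ℕ) + 1 < m, k = ⟨j + 1, h⟩ := by
    intro k hk
    have hk' := k.2
    exact ⟨⟨k - 1, by omega⟩, by simp; omega, by ext; simp; omega⟩
  refine ⟨σ, b.coord i₀, b.coord l, b i₀, b l, ⟨?_, ?_, ?_, ?_, ?_, ?_, ?_⟩, ?_, b.coord l₂, b l₂, ?_, ?_, ?_, ?_, ?_⟩
  · -- the relation
    intro x
    have : X ∘ₗ σ = LinearMap.id - (b.coord i₀).smulRight (b i₀) := by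
      refine b.ext fun k => ?_
      simp only [LinearMap.comp_apply, LinearMap.sub_apply, LinearMap.id_apply,
        LinearMap.smulRight_apply]
      by_cases hk : (k : ℕ) = 0
      · have hki : k = i₀ := Fin.ext hk
        rw [hσ0 k hk, map_zero, hki]
        simp
      · obtain ⟨j, h, rfl⟩ := hsucc k hk
        have hX : X (b j) = b ⟨j + 1, h⟩ := by
          rw [hb j, hb ⟨j + 1, h⟩, ← Module.End.mul_apply, ← pow_succ']
        rw [hσ1 j h, hX]
        have hne : (⟨(j : ℕ) + 1, h⟩ : Fin m) ≠ i₀ := by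
          intro heq
          have := congrArg Fin.val heq
          simp [i₀] at this
        simp [Basis.coord_apply, Finsupp.single_apply, hne]
    exact LinearMap.congr_fun this x
  · exact hσ0 i₀ rfl
  · simp
  · -- nilpotent
    refine ⟨m, b.ext fun k => ?_⟩
    have key : ∀ (j : ℕ) (hj : j < m), (σ ^ (j + 1)) (b ⟨j, hj⟩) = 0 := by
      intro j
      induction j with
      | zero =>
        intro hj
        rw [pow_one]
        exact hσ0 _ rfl
      | succ j ih =>
        intro hj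
        rw [pow_succ, Module.End.mul_apply]
        have := hσ1 ⟨j, by omega⟩ hj
        rw [this]
        exact ih _
    have hk := k.2
    have hle : σ ^ m = σ ^ (m - ((k : ℕ) + 1)) * σ ^ ((k : ℕ) + 1) := by
      rw [← pow_add]
      congr 1
      omega
    rw [hle, Module.End.mul_apply, key k k.2, map_zero, LinearMap.zero_apply]
  · intro x
    have : (b.coord l) ∘ₗ σ = 0 := by
      refine b.ext fun k => ?_
      simp only [LinearMap.comp_apply, LinearMap.zero_apply]
      by_cases hk : (k : ℕ) = 0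
      · rw [hσ0 k hk, map_zero]
      · obtain ⟨j, h, rfl⟩ := hsucc k hk
        rw [hσ1 j h]
        have hne : j ≠ l := by
          intro heq
          have := congrArg Fin.val heq
          simp [l] at this
          omega
        simp [Basis.coord_apply, Finsupp.single_apply, hne]
    exact LinearMap.congr_fun this x
  · simp
  · intro u hu
    refine ⟨up u, ?_⟩
    have : σ ∘ₗ up = LinearMap.id - (b.coord l).smulRight (b l) := by
      refine b.ext fun k => ?_
      simp only [LinearMap.comp_apply, LinearMap.sub_apply, LinearMap.id_apply,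
        LinearMap.smulRight_apply]
      by_cases hk : (k : ℕ) + 1 < m
      · rw [hup1 k hk, hσ1 k hk]
        have hne : k ≠ l := by
          intro heq
          have := congrArg Fin.val heq
          simp [l] at this
          omega
        simp [Basis.coord_apply, Finsupp.single_apply, hne]
      · have hkl : k = l := by
          ext
          have := k.2
          simp [l]
          omega
        rw [hup0 k hk, map_zero, hkl]
        simp
    have h1 := LinearMap.congr_fun this u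
    simp only [LinearMap.comp_apply, LinearMap.sub_apply, LinearMap.id_apply,
      LinearMap.smulRight_apply] at h1
    rw [h1, hu, zero_smul, sub_zero]
  · have hne : i₀ ≠ l := by
      intro heq
      have := congrArg Fin.val heq
      simp [i₀, l] at this
      omega
    simp [Basis.coord_apply, Finsupp.single_apply, hne.symm, hne]
  · -- the further covector
    intro x
    have : (b.coord l₂) ∘ₗ σ = b.coord l := by
      refine b.ext fun k => ?_
      simp only [LinearMap.comp_apply]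
      by_cases hk : (k : ℕ) = 0
      · rw [hσ0 k hk, map_zero]
        have hkl : k ≠ l := by
          intro heq
          have := congrArg Fin.val heq
          simp [l] at this
          omega
        simp [Basis.coord_apply, Finsupp.single_apply, hkl.symm, hkl]
      · obtain ⟨j, h, rfl⟩ := hsucc k hk
        rw [hσ1 j h]
        by_cases hj : j = l₂
        · have hjl : (⟨(j : ℕ) + 1, h⟩ : Fin m) = l := by
            ext
            have := congrArg Fin.val hj
            simp [l₂] at this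
            simp [l]
            omega
          rw [hjl, hj]
          simp
        · have hjl : (⟨(j : ℕ) + 1, h⟩ : Fin m) ≠ l := by
            intro heq
            apply hj
            have := congrArg Fin.val heq
            simp [l] at this
            ext
            simp [l₂]
            omega
          simp [Basis.coord_apply, Finsupp.single_apply, hj, hjl, Ne.symm hj, Ne.symm hjl]
    exact LinearMap.congr_fun this x
  · have hne : i₀ ≠ l₂ := by
      intro heq
      have := congrArg Fin.val heq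
      simp [i₀, l₂] at this
      omega
    simp [Basis.coord_apply, Finsupp.single_apply, hne.symm, hne]
  · simp
  · have hne : l₂ ≠ l := by
      intro heq
      have := congrArg Fin.val heq
      simp [l₂, l] at this
      omega
    simp [Basis.coord_apply, Finsupp.single_apply, hne.symm, hne]
  · have hne : i₀ ≠ l₂ := by
      intro heq
      have := congrArg Fin.val heq
      simp [i₀, l₂] at this
      omega
    simp [Basis.coord_apply, Finsupp.single_apply, hne.symm, hne]

end ChainDef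

section Prod

variable {W : Type v} [AddCommGroup W] [Module F W] [FiniteDimensional F W]
variable {U : Type v} [AddCommGroup U] [Module F U] [FiniteDimensional F U]

/-- A covector separating the kernel of `s` and the fixed vectors of `Y s`. -/
theorem exists_tau2 {Y s : W →ₗ[F] W} {τ : W →ₗ[F] F} (hD : Data Y s τ 1) :
    ∃ τ₂ : W →ₗ[F] F, (∀ x, s x = 0 → τ₂ x = 0) ∧ (∀ x, Y (s x) = x → τ₂ x = 0 → x = 0) := by
  classical
  by_cases h : ∃ f₀ : W, f₀ ≠ 0 ∧ Y (s f₀) = f₀
  · obtain ⟨f₀, hf₀, hfix⟩ := h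
    have hout : f₀ ∉ LinearMap.ker s := by
      intro hm
      have h1 : s f₀ = 0 := hm
      rw [h1, map_zero] at hfix
      exact hf₀ hfix.symm
    obtain ⟨f, hf, hle⟩ := Submodule.exists_le_ker_of_notMem hout
    have hτf : τ f₀ ≠ 0 := by
      intro h0
      exact hf₀ (hD.eig f₀ (by rw [hfix, one_smul]) h0)
    refine ⟨f, fun x hx => hle hx, fun x hx hfx => ?_⟩
    set r := τ x / τ f₀ with hr
    have h1 : x - r • f₀ = 0 := by
      apply hD.eig
      · rw [map_sub, map_sub, map_smul, map_smul, hfix, hx, one_smul]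
      · rw [map_sub, map_smul, smul_eq_mul, hr]
        field_simp
        ring
    have h2 : x = r • f₀ := sub_eq_zero.1 h1
    rw [h2, map_smul, smul_eq_mul] at hfx
    have h3 : r = 0 := (mul_eq_zero.1 hfx).resolve_right hf
    rw [h2, h3, zero_smul]
  · push Not at h
    refine ⟨0, fun _ _ => rfl, fun x hx _ => ?_⟩
    by_contra hne
    exact h x hne hx

/-- The factorization on `W × U`, with the parameter `1` and `U` of dimension at least three. -/
theorem exists_factor_prod3 (A : W ≃ₗ[F] W) (Z : U ≃ₗ[F] U) {s : W →ₗ[F] W} {τ : W →ₗ[F] F}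
    (hD : Data (A.symm : W →ₗ[F] W) s τ 1) {σ : U →ₗ[F] U} {ω ϖ : U →ₗ[F] F} {c e : U}
    (hch : Chain (Z : U →ₗ[F] U) σ ω ϖ c e) (hϖc : ϖ c = 0)
    {ϖ₂ : U →ₗ[F] F} {e₂ : U} (h21 : ∀ x, ϖ₂ (σ x) = ϖ x) (h22 : ϖ₂ c = 0) (h23 : ϖ₂ e₂ = 1) (h24 : ϖ e₂ = 0)
    (h25 : ω e₂ = 0)
    (p : F[X]) (hp : p.Monic) (hpd : p.natDegree + 1 = finrank F (W × U)) (hp0 : p.coeff 0 ≠ 0) (κ : F)
    (hκp : p.eval κ ≠ 0)
    (f : F[X]) (hf : f.Monic) (hfd : f.natDegree = finrank F (W × U))
    (hdet : (-1) ^ finrank F (W × U) * f.coeff 0 =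
      LinearMap.det ((A.prodCongr Z : (W × U) ≃ₗ[F] (W × U)) : (W × U) →ₗ[F] (W × U)) *
        ((-1) ^ p.natDegree * p.coeff 0 * κ)) :
    ∃ (B D : (W × U) →ₗ[F] (W × U)) (z z₀ e' : W × U) (φ : (W × U) →ₗ[F] F),
      (∀ x, B x = (A.prodCongr Z) (D x)) ∧ IsCyc B f z ∧
      IsCyc D ((X - C κ) * p) z₀ ∧ D e' = κ • e' ∧ φ e' = 1 ∧ (∀ x, φ x = 0 → φ (D x) = 0) := by
  classical
  obtain ⟨τ₂, hτ₂1, hτ₂2⟩ := exists_tau2 hD
  let φ : (W × U) →ₗ[F] F := ϖ ∘ₗ LinearMap.snd F W U
  let ψ : (W × U) →ₗ[F] F := ω ∘ₗ LinearMap.snd F W U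
  let Pr : U →ₗ[F] U := LinearMap.id - ω.smulRight c - ϖ.smulRight e
  let X₁ : (W × U) →ₗ[F] (W × U) := LinearMap.prod ((A.symm : W →ₗ[F] W) ∘ₗ s ∘ₗ LinearMap.fst F W U)
    ((τ ∘ₗ LinearMap.fst F W U).smulRight c + (τ₂ ∘ₗ LinearMap.fst F W U).smulRight e₂ +
      (LinearMap.id + σ) ∘ₗ Pr ∘ₗ LinearMap.snd F W U)
  have hφa : ∀ w u, φ (w, u) = ϖ u := fun _ _ => rfl
  have hψa : ∀ w u, ψ (w, u) = ω u := fun _ _ => rfl
  have hPr : ∀ u, Pr u = u - ω u • c - ϖ u • e := fun _ => rfl
  have hPr' : ∀ u, ω u = 0 → ϖ u = 0 → Pr u = u := by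
    intro u h1 h2
    rw [hPr, h1, h2]
    simp
  have hX₁a : ∀ w u, X₁ (w, u) = (A.symm (s w), τ w • c + τ₂ w • e₂ + (Pr u + σ (Pr u))) := fun _ _ => rfl
  have hT : ∀ w u, (A.prodCongr Z) (w, u) = (A w, Z u) := fun _ _ => rfl
  have hZσ : ∀ x, Z (σ x) = x - ω x • c := hch.rel
  have hinjσ : ∀ y, y + σ y = 0 → y = 0 := by
    intro y hy
    obtain ⟨N, hN⟩ := hch.nil
    have h1 : σ y = -y := eq_neg_of_add_eq_zero_right hy
    have h2 : ∀ k : ℕ, (σ ^ k) y = ((-1 : F) ^ k) • y := by
      intro k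
      induction k with
      | zero => simp
      | succ k ih =>
        rw [pow_succ, Module.End.mul_apply, h1, map_neg, ih, pow_succ, mul_neg_one, neg_smul]
    have h3 := h2 N
    rw [hN, LinearMap.zero_apply] at h3
    exact (smul_eq_zero.1 h3.symm).resolve_left (pow_ne_zero _ (by simp))
  refine (fun key => ?_) (exists_factor (A.prodCongr Z) φ ψ ((0 : W), e)
    (by rw [hφa]; exact hch.ϖe) X₁ ?_ ?_ ?_ ?_ p hp hpd hp0 κ hκp f hf hfd hdet)
  · obtain ⟨B, D, z, z₀, e', hBD, hB, hD', hDe, he', hDφ⟩ := key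
    exact ⟨B, D, z, z₀, e', φ, hBD, hB, hD', hDe, he', hDφ⟩
  · -- the image of `X₁` is in the hyperplane
    rintro ⟨w, u⟩
    rw [hX₁a, hφa, map_add, map_add, map_add, map_smul, map_smul, hϖc, h24, hch.ϖσ, hPr, map_sub, map_sub, map_smul,
      map_smul, hϖc, hch.ϖe]
    simp
  · -- first level
    intro P hPφ hinv hψ
    have hP1 : ∀ w u, (w, u) ∈ P → ϖ u = 0 ∧ ω u = 0 := fun w u h => ⟨hPφ h, hψ _ h⟩
    have hX : ∀ w u, (w, u) ∈ P → X₁ (w, u) = (A.symm (s w), τ w • c + τ₂ w • e₂ + (u + σ u)) := by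
      intro w u h
      rw [hX₁a, hPr' u (hP1 w u h).2 (hP1 w u h).1]
    have hmem : ∀ w u, (w, u) ∈ P → (A.symm (s w), τ w • c + τ₂ w • e₂ + (u + σ u)) ∈ P := by
      intro w u h
      rw [← hX w u h]
      exact hinv _ h
    have ha : ∀ w u, (w, u) ∈ P → τ w + ω (σ u) = 0 := by
      intro w u h
      have h1 := (hP1 _ _ (hmem w u h)).2
      rw [map_add, map_add, map_add, map_smul, map_smul, hch.ωc, h25, (hP1 w u h).2, smul_eq_mul, smul_eq_mul,
        mul_one, mul_zero, add_zero, zero_add] at h1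
      exact h1
    -- the part with vanishing `W`-component
    have hE : ∀ (m : ℕ) (u : U), ((0 : W), u) ∈ P → (σ ^ m) u = 0 → u = 0 := by
      intro m
      induction m with
      | zero =>
        intro u _ hu
        simpa using hu
      | succ m ih =>
        intro u h hu
        have h0 := ha 0 u h
        rw [map_zero, zero_add] at h0
        have h1 := hmem 0 u h
        have h2 : ((0 : W), σ u) ∈ P := by
          have h3 := P.sub_mem h1 h
          have h4 : (A.symm (s 0), τ 0 • c + τ₂ 0 • e₂ + (u + σ u)) - ((0 : W), u) = ((0 : W), σ u) := by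
            refine Prod.ext ?_ ?_
            · simp
            · change τ 0 • c + τ₂ 0 • e₂ + (u + σ u) - u = σ u
              simp
          rwa [h4] at h3
        have h3 : (σ ^ m) (σ u) = 0 := by
          rw [← Module.End.mul_apply, ← pow_succ]
          exact hu
        have h4 := ih _ h2 h3
        have h5 := hZσ u
        rw [h4, map_zero, (hP1 0 u h).2, zero_smul, sub_zero] at h5
        exact h5.symm
    obtain ⟨N, hN⟩ := hch.nil
    have hu0 : ∀ u, ((0 : W), u) ∈ P → u = 0 := fun u h => hE N u h (by rw [hN, LinearMap.zero_apply])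
    -- the projection to `W`
    let Q₀ : Submodule F W := P.map (LinearMap.fst F W U)
    have hQ₀ : ∀ w, w ∈ Q₀ → ∃ u, (w, u) ∈ P := by
      rintro w ⟨⟨w', u⟩, h, rfl⟩
      exact ⟨u, h⟩
    have hQ₀' : ∀ w u, (w, u) ∈ P → w ∈ Q₀ := fun w u h => ⟨(w, u), h, rfl⟩
    set Rh : W →ₗ[F] W := (A.symm : W →ₗ[F] W) ∘ₗ s with hRh
    have hRa : ∀ x, Rh x = A.symm (s x) := fun _ => rfl
    have hRQ : ∀ w ∈ Q₀, Rh w ∈ Q₀ := by
      intro w hw
      obtain ⟨u, hu⟩ := hQ₀ w hw
      exact hQ₀' _ _ (hmem w u hu)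
    have hinj0 : ∀ w ∈ Q₀, Rh w = 0 → w = 0 := by
      intro w hw h0
      obtain ⟨u, hu⟩ := hQ₀ w hw
      have h1 : s w = 0 := by
        apply A.symm.injective
        rw [map_zero, ← hRa, h0]
      have h2 := hτ₂1 w h1
      have h3 := hmem w u hu
      rw [← hRa, h0, h2, zero_smul, add_zero] at h3
      have h4 := hu0 _ h3
      have h6 : (u + τ w • c) + σ (u + τ w • c) = 0 := by
        rw [map_add, map_smul, hch.σc, smul_zero, add_zero, ← h4]
        abel
      have h7 := hinjσ _ h6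
      have h8 : ω (u + τ w • c) = 0 := by rw [h7, map_zero]
      rw [map_add, map_smul, hch.ωc, (hP1 w u hu).2, zero_add, smul_eq_mul, mul_one] at h8
      exact hD.d1 w h1 h8
    have hinj1 : ∀ w ∈ Q₀, Rh w = w → w = 0 := by
      intro w hw h0
      obtain ⟨u, hu⟩ := hQ₀ w hw
      have h3 := hmem w u hu
      rw [← hRa, h0] at h3
      have h4 := P.sub_mem h3 hu
      have h5 : (w, τ w • c + τ₂ w • e₂ + (u + σ u)) - (w, u) = ((0 : W), τ w • c + τ₂ w • e₂ + σ u) := by
        refine Prod.ext (sub_self w) ?_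
        change τ w • c + τ₂ w • e₂ + (u + σ u) - u = τ w • c + τ₂ w • e₂ + σ u
        abel
      rw [h5] at h4
      have h6 := hu0 _ h4
      have h7 := congrArg ϖ₂ h6
      rw [map_add, map_add, map_smul, map_smul, h22, h23, h21, (hP1 w u hu).1, map_zero] at h7
      simp only [smul_eq_mul, mul_zero, mul_one, zero_add, add_zero] at h7
      exact hτ₂2 w h0 h7
    have hpow0 : ∀ (k : ℕ) (x : W), x ∈ Q₀ → (Rh ^ k) x = 0 → x = 0 := by
      intro k
      induction k with
      | zero => intro x _ h0; simpa using h0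
      | succ k ih =>
        intro x hx h0
        rw [pow_succ, Module.End.mul_apply] at h0
        exact hinj0 x hx (ih _ (hRQ x hx) h0)
    obtain ⟨a, b, hk⟩ := hD.kill
    let Am : W →ₗ[F] W := Rh - algebraMap F (W →ₗ[F] W) 1
    have hAm : aeval Rh (X - C 1 : F[X]) = Am := by simp [Am]
    have hAapp : ∀ x, Am x = Rh x - x := fun x => by
      simp [Am]
    have hAQ : ∀ x ∈ Q₀, Am x ∈ Q₀ := fun x hx => by
      rw [hAapp]
      exact Q₀.sub_mem (hRQ x hx) hx
    have hApowQ : ∀ (k : ℕ) (x : W), x ∈ Q₀ → (Am ^ k) x ∈ Q₀ := by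
      intro k
      induction k with
      | zero => intro x hx; simpa using hx
      | succ k ih =>
        intro x hx
        rw [pow_succ', Module.End.mul_apply]
        exact hAQ _ (ih x hx)
    have hAinj : ∀ (k : ℕ) (x : W), x ∈ Q₀ → (Am ^ k) x = 0 → x = 0 := by
      intro k
      induction k with
      | zero => intro x _ h0; simpa using h0
      | succ k ih =>
        intro x hx h0
        rw [pow_succ, Module.End.mul_apply] at h0
        have h1 := ih _ (hAQ x hx) h0
        rw [hAapp, sub_eq_zero] at h1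
        exact hinj1 x hx h1
    have hQ0 : ∀ w ∈ Q₀, w = 0 := by
      intro x hx
      have h2 : (Rh ^ a) ((Am ^ b) x) = 0 := by
        have := LinearMap.congr_fun hk x
        rw [map_mul, map_pow, map_pow, aeval_X, hAm, Module.End.mul_apply, LinearMap.zero_apply] at this
        exact this
      exact hAinj b x hx (hpow0 a _ (hApowQ b x hx) h2)
    rw [eq_bot_iff]
    rintro ⟨w, u⟩ hx
    rw [Submodule.mem_bot]
    have hw := hQ0 w (hQ₀' w u hx)
    subst hw
    have hu := hu0 u hx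
    subst hu
    rfl
  · -- the hyperplane maps into `ker ψ`
    rintro ⟨w, u⟩ hx
    rw [hT, hψa]
    obtain ⟨v, rfl⟩ := hch.surj u hx
    change ω (Z (σ v)) = 0
    rw [hZσ, map_sub, map_smul, hch.ωc, smul_eq_mul, mul_one, sub_self]
  · -- second level
    intro P hPφ hPψ hinv
    have hP1 : ∀ w u, (w, u) ∈ P → ϖ u = 0 ∧ ω u = 0 := fun w u h => ⟨hPφ h, hPψ h⟩
    have hX : ∀ w u, (w, u) ∈ P → (A.prodCongr Z) (X₁ (w, u)) = (s w, Z (τ w • c + τ₂ w • e₂ + (u + σ u))) := by
      intro w u h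
      rw [hX₁a, hPr' u (hP1 w u h).2 (hP1 w u h).1, hT, A.apply_symm_apply]
    have hmem : ∀ w u, (w, u) ∈ P → (s w, Z (τ w • c + τ₂ w • e₂ + (u + σ u))) ∈ P := by
      intro w u h
      rw [← hX w u h]
      exact hinv _ h
    -- the part in `U`
    have hZu : ∀ u, ((0 : W), u) ∈ P → ((0 : W), Z u) ∈ P := by
      intro u h
      have h1 := hmem 0 u h
      rw [map_zero, map_zero, map_zero, zero_smul, zero_smul, zero_add, zero_add, map_add, hZσ, (hP1 0 u h).2,
        zero_smul, sub_zero] at h1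
      have h2 := P.sub_mem h1 h
      have h3 : ((0 : W), Z u + u) - ((0 : W), u) = ((0 : W), Z u) := by
        refine Prod.ext (sub_zero _) ?_
        change Z u + u - u = Z u
        abel
      rwa [h3] at h2
    let P₀ : Submodule F U := P.comap (LinearMap.inr F W U)
    have hP₀mem : ∀ u, u ∈ P₀ ↔ ((0 : W), u) ∈ P := fun _ => Iff.rfl
    let Zr : P₀ →ₗ[F] P₀ := (Z : U →ₗ[F] U).restrict (fun u hu => (hP₀mem _).2 (hZu u ((hP₀mem _).1 hu)))
    have hZrinj : Function.Injective Zr := by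
      rw [← LinearMap.ker_eq_bot, LinearMap.ker_eq_bot']
      rintro ⟨u, hu⟩ h0
      have h1 : Z u = 0 := congrArg Subtype.val h0
      have h2 : u = 0 := by simpa using h1
      exact Subtype.ext h2
    have hZrs := LinearMap.injective_iff_surjective.1 hZrinj
    have hσZ : ∀ u, ϖ u = 0 → σ (Z u) = u := by
      intro u hu
      obtain ⟨v, rfl⟩ := hch.surj u hu
      rw [hZσ, map_sub, map_smul, hch.σc, smul_zero, sub_zero]
    have hP₀σ : ∀ u, u ∈ P₀ → σ u ∈ P₀ := by
      intro u hu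
      obtain ⟨⟨u', hu'⟩, h1⟩ := hZrs ⟨u, hu⟩
      have h2 : Z u' = u := congrArg Subtype.val h1
      rw [← h2, hσZ u' (hP1 0 u' ((hP₀mem _).1 hu')).1]
      exact hu'
    have hE : ∀ (m : ℕ) (u : U), u ∈ P₀ → (σ ^ m) u = 0 → u = 0 := by
      intro m
      induction m with
      | zero =>
        intro u _ hu
        simpa using hu
      | succ m ih =>
        intro u h hu
        have h3 : (σ ^ m) (σ u) = 0 := by
          rw [← Module.End.mul_apply, ← pow_succ]
          exact hu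
        have h4 := ih _ (hP₀σ u h) h3
        have h5 := hZσ u
        rw [h4, map_zero, (hP1 0 u ((hP₀mem _).1 h)).2, zero_smul, sub_zero] at h5
        exact h5.symm
    obtain ⟨N, hN⟩ := hch.nil
    have hu0 : ∀ u, ((0 : W), u) ∈ P → u = 0 := fun u h =>
      hE N u ((hP₀mem _).2 h) (by rw [hN, LinearMap.zero_apply])
    -- descending along `s`
    have hC : ∀ (m : ℕ) (w : W) (u : U), (w, u) ∈ P → (s ^ m) w = 0 → w = 0 ∧ u = 0 := by
      intro m
      induction m with
      | zero =>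
        intro w u h hw
        have hw' : w = 0 := by simpa using hw
        subst hw'
        exact ⟨rfl, hu0 u h⟩
      | succ m ih =>
        intro w u h hw
        have h3 : (s ^ m) (s w) = 0 := by
          rw [← Module.End.mul_apply, ← pow_succ]
          exact hw
        have h4 := ih _ _ (hmem w u h) h3
        have h5 : τ w • c + τ₂ w • e₂ + (u + σ u) = 0 := Z.injective (by rw [h4.2, map_zero])
        rw [hτ₂1 w h4.1, zero_smul, add_zero] at h5
        -- `(1 + σ) (u + τ w • c) = 0`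
        have h6 : (u + τ w • c) + σ (u + τ w • c) = 0 := by
          rw [map_add, map_smul, hch.σc, smul_zero, add_zero, ← h5]
          abel
        have h7 := hinjσ _ h6
        have h8 : ω (u + τ w • c) = 0 := by rw [h7, map_zero]
        rw [map_add, map_smul, hch.ωc, (hP1 w u h).2, zero_add, smul_eq_mul, mul_one] at h8
        rw [h8, zero_smul, add_zero] at h7
        exact ⟨hD.d1 w h4.1 h8, h7⟩
    obtain ⟨N', hN'⟩ := hD.nil
    rw [eq_bot_iff]
    rintro ⟨w, u⟩ hx
    have h1 := hC N' w u hx (by rw [hN', LinearMap.zero_apply])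
    rw [Submodule.mem_bot, h1.1, h1.2]
    rfl

end Prod

section Cell

variable {V : Type v} [AddCommGroup V] [Module F V] [FiniteDimensional F V]

/-- **The factorization over every field.** `T = B D⁻¹` with `B`, `D` having the prescribed characteristic polynomial,
and conjugate by an element of determinant one. -/
theorem exists_cell_factor2 (T : V →ₗ[F] V) (hinj : Function.Injective T) (hdet : LinearMap.det T = 1)
    (hT : ¬ ∃ a : F, ∀ x, T x = a • x)
    (p : F[X]) (hp : p.Monic) (hpd : p.natDegree + 1 = finrank F V) (κ : F)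
    (hκp : p.eval κ ≠ 0) (hκ1 : (-1) ^ p.natDegree * p.coeff 0 * κ = 1) :
    ∃ (B D : V →ₗ[F] V) (G : V ≃ₗ[F] V), (∀ x, B x = T (D x)) ∧ B.charpoly = (X - C κ) * p ∧
      D.charpoly = (X - C κ) * p ∧ LinearMap.det (G : V →ₗ[F] V) = 1 ∧ ∀ x, G (D x) = B (G x) := by
  classical
  obtain ⟨W, U, hc, hW, hU, hU2, z, hz, hgen⟩ := exists_decomp T hT
  let A : W ≃ₗ[F] W := resEquiv T hinj W hW
  let Z : U ≃ₗ[F] U := resEquiv T hinj U hU
  obtain ⟨s, τ, hd⟩ := exists_data (t := (1 : F)) one_ne_zero _ W rfl (A.symm : W →ₗ[F] W) A.symm.injective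
  have hgen' : ∀ x : U, ∃ g : F[X], aeval (Z : U →ₗ[F] U) g (⟨z, hz⟩ : U) = x := by
    intro x
    obtain ⟨f, hf⟩ := hgen x x.2
    refine ⟨f, Subtype.ext ?_⟩
    have := coe_aeval_restrict U T hU f ⟨z, hz⟩
    exact this.trans hf
  let e₀ : (W × U) ≃ₗ[F] V := Submodule.prodEquivOfIsCompl W U hc
  have he₀ : ∀ x : W × U, e₀ x = (x.1 : V) + (x.2 : V) := fun _ => rfl
  have hconj : ∀ x : W × U, e₀ ((A.prodCongr Z) x) = T (e₀ x) := by
    rintro ⟨x₁, x₂⟩
    rw [he₀, he₀, map_add]
    rfl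
  have hdet' : LinearMap.det ((A.prodCongr Z : (W × U) ≃ₗ[F] (W × U)) : (W × U) →ₗ[F] (W × U)) = 1 := by
    have h1 : ((A.prodCongr Z : (W × U) ≃ₗ[F] (W × U)) : (W × U) →ₗ[F] (W × U)) =
        (e₀.symm : V →ₗ[F] (W × U)) ∘ₗ T ∘ₗ (e₀ : (W × U) →ₗ[F] V) := by
      refine LinearMap.ext fun x => e₀.injective ?_
      change e₀ ((A.prodCongr Z) x) = e₀ (e₀.symm (T (e₀ x)))
      rw [hconj, e₀.apply_symm_apply]
    rw [h1]
    exact (LinearMap.det_conj T e₀.symm).trans hdet
  have hfr : finrank F (W × U) = finrank F V := e₀.finrank_eq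
  have hpd' : p.natDegree + 1 = finrank F (W × U) := by rw [hfr]; exact hpd
  have hp0 : p.coeff 0 ≠ 0 := by
    intro h0
    rw [h0] at hκ1
    simp at hκ1
  have hf : ((X - C κ) * p).Monic := (monic_X_sub_C κ).mul hp
  have hfd : ((X - C κ) * p).natDegree = finrank F (W × U) := by
    rw [(monic_X_sub_C κ).natDegree_mul hp, natDegree_X_sub_C, add_comm]
    exact hpd'
  have hf0 : (-1) ^ finrank F (W × U) * ((X - C κ) * p).coeff 0 = 1 := by
    rw [← hpd', mul_coeff_zero, coeff_sub, coeff_X_zero, coeff_C_zero, pow_succ]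
    linear_combination hκ1
  have hdet2 : (-1) ^ finrank F (W × U) * ((X - C κ) * p).coeff 0 =
      LinearMap.det ((A.prodCongr Z : (W × U) ≃ₗ[F] (W × U)) : (W × U) →ₗ[F] (W × U)) *
        ((-1) ^ p.natDegree * p.coeff 0 * κ) := by
    rw [hf0, hdet', hκ1, one_mul]
  have key : ∃ (B D : (W × U) →ₗ[F] (W × U)) (z z₀ e' : W × U) (φ : (W × U) →ₗ[F] F),
      (∀ x, B x = (A.prodCongr Z) (D x)) ∧ IsCyc B ((X - C κ) * p) z ∧
      IsCyc D ((X - C κ) * p) z₀ ∧ D e' = κ • e' ∧ φ e' = 1 ∧ (∀ x, φ x = 0 → φ (D x) = 0) := by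
    rcases Nat.lt_or_ge (finrank F U) 3 with hU3 | hU3
    · obtain ⟨σ, ω, ϖ, c, e, hch, hϖ, hsep2⟩ := exists_chain (Z : U →ₗ[F] U) ⟨z, hz⟩ hgen' (by omega)
      exact exists_factor_prod A Z hd hch (hϖ hU2) (Or.inl (hsep2 (by omega))) p hp hpd' hp0 κ hκp _ hf hfd hdet2
    · obtain ⟨σ, ω, ϖ, c, e, hch, hϖ, ϖ₂, e₂, h21, h22, h23, h24, h25⟩ := exists_chain3 (Z : U →ₗ[F] U) ⟨z, hz⟩ hgen' hU3
      exact exists_factor_prod3 A Z hd hch hϖ h21 h22 h23 h24 h25 p hp hpd' hp0 κ hκp _ hf hfd hdet2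
  obtain ⟨B, D, z', z₀, e', φ, hBD, hB, hD', hDe, he', hDφ⟩ := key
  obtain ⟨G, hG, hGD⟩ := exists_G_of_factor B D φ _ z' z₀ e' κ hB hD' hDe he' hDφ
  refine ⟨(e₀ : (W × U) →ₗ[F] V) ∘ₗ B ∘ₗ (e₀.symm : V →ₗ[F] (W × U)),
    (e₀ : (W × U) →ₗ[F] V) ∘ₗ D ∘ₗ (e₀.symm : V →ₗ[F] (W × U)),
    e₀.symm.trans (G.trans e₀), ?_, ?_, ?_, ?_, ?_⟩
  · intro x
    simp only [LinearMap.comp_apply, LinearEquiv.coe_coe, LinearEquiv.apply_symm_apply]
    rw [hBD, hconj]
  · have h1 := LinearEquiv.charpoly_conj e₀ B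
    rw [hB.charpoly_eq] at h1
    exact h1
  · have h1 := LinearEquiv.charpoly_conj e₀ D
    rw [hD'.charpoly_eq] at h1
    exact h1
  · have h1 : ((e₀.symm.trans (G.trans e₀) : V ≃ₗ[F] V) : V →ₗ[F] V) =
        (e₀ : (W × U) →ₗ[F] V) ∘ₗ (G : (W × U) →ₗ[F] (W × U)) ∘ₗ (e₀.symm : V →ₗ[F] (W × U)) := rfl
    rw [h1, LinearMap.det_conj, hG]
  · intro x
    simp only [LinearMap.comp_apply, LinearEquiv.coe_coe, LinearEquiv.trans_apply, LinearEquiv.symm_apply_apply]
    rw [hGD]

end Cell

section Matrix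

open Matrix

variable {m : ℕ}

/-- The factorization in matrix form. -/
theorem exists_matrix_factor2 {p : F[X]} {κ : F} (hp : p.Monic) (hpd : p.natDegree + 1 = m)
    (hκp : p.eval κ ≠ 0) (hκ1 : (-1) ^ p.natDegree * p.coeff 0 * κ = 1)
    (A : GL (Fin m) F) (hdet : (A : Matrix (Fin m) (Fin m) F).det = 1)
    (hns : ¬ ∃ a : F, (A : Matrix (Fin m) (Fin m) F) = a • 1) :
    ∃ B D G : GL (Fin m) F, A = B * D⁻¹ ∧ (B : Matrix (Fin m) (Fin m) F).charpoly = (X - C κ) * p ∧
      (D : Matrix (Fin m) (Fin m) F).charpoly = (X - C κ) * p ∧ G * D * G⁻¹ = B ∧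
      (G : Matrix (Fin m) (Fin m) F).det = 1 ∧ (B : Matrix (Fin m) (Fin m) F).det = 1 := by
  classical
  set AA : Matrix (Fin m) (Fin m) F := (A : Matrix (Fin m) (Fin m) F) with hAA
  have hinj : Function.Injective (Matrix.toLin' AA) := by
    intro x y hxy
    have h1 : AA *ᵥ x = AA *ᵥ y := by simpa using hxy
    have h3 := congrArg (fun v => ((A⁻¹ : GL (Fin m) F) : Matrix (Fin m) (Fin m) F) *ᵥ v) h1
    simpa [mulVec_mulVec, hAA] using h3
  have hfr : finrank F (Fin m → F) = m := by simp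
  obtain ⟨B', D', G', hBD, hB, hD, hG, hGD⟩ := exists_cell_factor2 (Matrix.toLin' AA) hinj
    (by rw [LinearMap.det_toLin', hdet]) (by
      rintro ⟨a, ha⟩
      apply hns
      refine ⟨a, ?_⟩
      apply Matrix.ext_of_mulVec_single
      intro j
      have := ha (Pi.single j 1)
      rw [Matrix.toLin'_apply] at this
      rw [this, smul_mulVec, one_mulVec]) p hp (by rw [hfr]; exact hpd) κ hκp hκ1
  have hchar : ∀ T : (Fin m → F) →ₗ[F] (Fin m → F), (LinearMap.toMatrix' T).charpoly = T.charpoly := by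
    intro T
    have := Matrix.charpoly_toLin' (LinearMap.toMatrix' T)
    rw [Matrix.toLin'_toMatrix'] at this
    exact this.symm
  have hf0 : (-1 : F) ^ m * ((X - C κ) * p).coeff 0 = 1 := by
    rw [← hpd, mul_coeff_zero, coeff_sub, coeff_X_zero, coeff_C_zero, pow_succ]
    linear_combination hκ1
  have hdetf : ∀ M : Matrix (Fin m) (Fin m) F, M.charpoly = (X - C κ) * p → M.det = 1 := by
    intro M hM
    rw [Matrix.det_eq_sign_charpoly_coeff, hM, Fintype.card_fin]
    exact hf0
  have h10 : (1 : F) ≠ 0 := one_ne_zero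
  have hBm : (LinearMap.toMatrix' B').charpoly = (X - C κ) * p := by rw [hchar, hB]
  have hDm : (LinearMap.toMatrix' D').charpoly = (X - C κ) * p := by rw [hchar, hD]
  have hGdet : (LinearMap.toMatrix' (G' : (Fin m → F) →ₗ[F] (Fin m → F))).det = 1 := by
    rw [LinearMap.det_toMatrix']
    exact hG
  let BB : GL (Fin m) F := Matrix.GeneralLinearGroup.mkOfDetNeZero _ (by rw [hdetf _ hBm]; exact h10)
  let DD : GL (Fin m) F := Matrix.GeneralLinearGroup.mkOfDetNeZero _ (by rw [hdetf _ hDm]; exact h10)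
  let GG : GL (Fin m) F := Matrix.GeneralLinearGroup.mkOfDetNeZero _ (by rw [hGdet]; exact h10)
  have hBB : (BB : Matrix (Fin m) (Fin m) F) = LinearMap.toMatrix' B' := rfl
  have hDD : (DD : Matrix (Fin m) (Fin m) F) = LinearMap.toMatrix' D' := rfl
  have hGG : (GG : Matrix (Fin m) (Fin m) F) = LinearMap.toMatrix' (G' : (Fin m → F) →ₗ[F] (Fin m → F)) := rfl
  have h1 : BB = A * DD := by
    apply Units.ext
    rw [Units.val_mul, hBB, hDD, ← hAA]
    have h3 : B' = Matrix.toLin' AA ∘ₗ D' := LinearMap.ext hBD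
    rw [h3, LinearMap.toMatrix'_comp, LinearMap.toMatrix'_toLin']
  have h3 : GG * DD = BB * GG := by
    apply Units.ext
    rw [Units.val_mul, Units.val_mul, hBB, hDD, hGG, ← LinearMap.toMatrix'_comp, ← LinearMap.toMatrix'_comp]
    congr 1
    exact LinearMap.ext hGD
  refine ⟨BB, DD, GG, ?_, hBm, hDm, ?_, hGdet, hdetf _ hBm⟩
  · rw [h1, mul_inv_cancel_right]
  · rw [h3, mul_inv_cancel_right]

end Matrix

end Cfsg.Agent.Lib.OrePlus
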