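import Mathlib
import Cfsg.Agent.Lib.OrePlus.Normal

/-!
# The rank of the block `R` is even for elements of `Ω`
-/

set_option autoImplicit false
set_option linter.unusedSectionVars false
set_option linter.unusedSimpArgs false
set_option linter.unusedVariables false

namespace Cfsg.Agent.Lib.OrePlus

open Matrix QuadraticMap Module
open Cfsg.Agent.Lib.Classical.Orth.Basic
open Cfsg.Agent.Lib.Classical.Orth.Models
open Cfsg.Agent.Lib.Classical.Orth.Adjust
open Cfsg.Agent.Lib.Classical.Orth.Classes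
open Cfsg.Agent.Lib.Classical.Orth.CartanDieudonne
open Cfsg.Agent.Lib.Classical.Orth.Spinor
open Cfsg.Agent.Lib.Classical.Orth.Levi
open Cfsg.Agent.Lib.OreOmega (IsAltM isAltM_of_entries dlt exists_rank_form dlt_mulVec_single)

variable {F : Type*} [Field F] {n : ℕ}

/-- The inclusion of the `x`-coordinates. -/
def inlX (n : ℕ) (F : Type*) [Field F] : (Fin n → F) →ₗ[F] VP n F where
  toFun x := mkP x 0
  map_add' a b := by
    rw [mkP_add]
    simp
  map_smul' t a := by
    rw [RingHom.id_apply, mkP_smul]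
    simp

theorem inlX_apply (x : Fin n → F) : inlX n F x = mkP x 0 := rfl

/-- The rank of `R` and the intersection. -/
theorem finrank_inf_eq (g : OP n F) : finrank F ↥(U₀ n F ⊓ gMap g (U₀ n F)) + (blkR g).rank = n := by
  classical
  let φ : (Fin n → F) →ₗ[F] VP n F := (Matrix.mulVecLin (matP g)) ∘ₗ inlX n F
  have hφ : ∀ x, φ x = act g (mkP x 0) := fun _ => rfl
  have hφi : Function.Injective φ := by
    intro a b hab
    rw [hφ, hφ] at hab
    have h1 := congrArg (act g⁻¹) hab
    rw [act_inv_act, act_inv_act] at h1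
    exact congrArg xc h1
  have hK : U₀ n F ⊓ gMap g (U₀ n F) = (LinearMap.ker (Matrix.mulVecLin (blkR g))).map φ := by
    ext v
    constructor
    · rintro ⟨hv1, hv2⟩
      obtain ⟨y, hy, rfl⟩ := mem_gMap.1 hv2
      have hy' : y = mkP (xc y) 0 := by
        apply vext
        · rfl
        · ext i
          exact mem_U₀.1 hy i
      refine ⟨xc y, ?_, ?_⟩
      · rw [SetLike.mem_coe, LinearMap.mem_ker, Matrix.mulVecLin_apply]
        have h1 := mem_U₀.1 hv1
        rw [hy', act_W] at h1
        ext i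
        exact h1 i
      · rw [hφ, ← hy']
    · rintro ⟨x, hx, rfl⟩
      rw [SetLike.mem_coe, LinearMap.mem_ker, Matrix.mulVecLin_apply] at hx
      constructor
      · rw [SetLike.mem_coe, mem_U₀, hφ, act_W, hx]
        intro i
        rfl
      · exact mem_gMap.2 ⟨mkP x 0, mem_U₀.2 (fun i => rfl), rfl⟩
  have h1 : finrank F ↥(U₀ n F ⊓ gMap g (U₀ n F)) = finrank F ↥(LinearMap.ker (Matrix.mulVecLin (blkR g))) := by
    rw [hK]
    exact (LinearEquiv.finrank_eq (Submodule.equivMapOfInjective φ hφi _)).symm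
  have h2 := LinearMap.finrank_range_add_finrank_ker (Matrix.mulVecLin (blkR g))
  have h3 : finrank F (Fin n → F) = n := by simp
  have h4 : (blkR g).rank = finrank F ↥(LinearMap.range (Matrix.mulVecLin (blkR g))) := rfl
  omega

/-- The rank of a matrix in terms of the rank form. -/
theorem rank_of_form {R : Matrix (Fin n) (Fin n) F} {E Cm : GL (Fin n) F} {s : Finset (Fin n)}
    (hΔ : (E : Matrix (Fin n) (Fin n) F) * R * (Cm : Matrix (Fin n) (Fin n) F) = diagonal (dlt s)) :
    R.rank = s.card := by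
  classical
  have h1 : ((E : Matrix (Fin n) (Fin n) F) * R * (Cm : Matrix (Fin n) (Fin n) F)).rank = R.rank := by
    rw [Matrix.rank_mul_eq_left_of_isUnit_det _ _ ((Matrix.isUnit_iff_isUnit_det _).1 Cm.isUnit),
      Matrix.rank_mul_eq_right_of_isUnit_det _ _ ((Matrix.isUnit_iff_isUnit_det _).1 E.isUnit)]
  rw [← h1, hΔ, Matrix.rank_diagonal]
  rw [Fintype.card_subtype]
  congr 1
  ext i
  simp [dlt]

variable [Fintype F]

/-- Elements of `Ω` preserve the class of `U₀`. -/
theorem even_of_omega (h : Fintype.card F ≠ 2 ∨ n ≠ 2) {g : OP n F} (hg : g ∈ Cfsg.Omega F (⇑(plusForm n F))) :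
    Even (n - finrank F ↥(U₀ n F ⊓ gMap g (U₀ n F))) := by
  have hQ := plusForm_nondegenerate (F := F) n
  by_cases h2 : (2 : F) = 0
  · have h10 : (1 : F) ≠ 0 := one_ne_zero
    have hc : CharP F 2 := CharTwo.of_one_ne_zero_of_two_eq_zero h10 h2
    have hF : (∃ c : F, c ≠ 0 ∧ c ≠ 1) ∨ Fintype.card (Fin n ⊕ Fin n) ≠ 4 := by
      rcases h with h | h
      · exact Or.inl (exists_ne_zero_one_of_card h)
      · right
        rw [card_plus]
        omega
    exact (class_iff_omega hQ hF (card_plus n) (isTS_U₀ n) (finrank_U₀ n) g).2 hg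
  · have h4 := (mem_omega_iff _ hQ h2 g).1 hg
    have h5 : ((g : GL (Fin n ⊕ Fin n) F) : Matrix (Fin n ⊕ Fin n) (Fin n ⊕ Fin n) F).det = 1 := by
      rw [← sign_mul_iff_det hQ h2, h4.1, h4.2, one_mul]
    exact (class_iff_det hQ h2 (card_plus n) (isTS_U₀ n) (finrank_U₀ n) g).2 h5

/-- The size of the rank form is even. -/
theorem even_card_of_omega (h : Fintype.card F ≠ 2 ∨ n ≠ 2) {g : OP n F} (hg : g ∈ Cfsg.Omega F (⇑(plusForm n F)))
    {E Cm : GL (Fin n) F} {s : Finset (Fin n)}
    (hΔ : (E : Matrix (Fin n) (Fin n) F) * blkR g * (Cm : Matrix (Fin n) (Fin n) F) = diagonal (dlt s)) :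
    Even s.card := by
  have h1 := even_of_omega h hg
  have h2 := finrank_inf_eq g
  rw [rank_of_form hΔ] at h2
  have h3 : n - finrank F ↥(U₀ n F ⊓ gMap g (U₀ n F)) = s.card := by omega
  rwa [h3] at h1

end Cfsg.Agent.Lib.OrePlus
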