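import Mathlib
import Cfsg.Agent.Lib.OrePlus.Factor
import Cfsg.Agent.Lib.OrePlus.Poly
import Cfsg.Agent.Lib.OrePlus.Even
import Cfsg.Agent.Lib.OrePlus.Normal2
import Cfsg.Agent.Lib.OrePlus.Position
import Cfsg.Agent.Lib.OreOmega.Main

/-!
# Every element of `Ω⁺_{2n}(q)` moving a maximal singular subspace is a commutator
-/

set_option autoImplicit false
set_option linter.unusedSectionVars false
set_option linter.unusedSimpArgs false
set_option linter.unusedVariables false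

namespace Cfsg.Agent.Lib.OrePlus

open Matrix QuadraticMap Module Polynomial
open Cfsg.Agent.Lib.Classical.Orth.Basic
open Cfsg.Agent.Lib.Classical.Orth.Models
open Cfsg.Agent.Lib.Classical.Orth.Spinor
open Cfsg.Agent.Lib.Classical.Orth.Levi
open Cfsg.Agent.Lib.OreOmega (IsAltM alt_fix_zero noRoot_of_irreducible exists_nonscalar exists_comm_of_cell
  mem_commutator_of_fpf)

variable {F : Type*} [Field F] [Fintype F] {n : ℕ}

/-- The data of the Levi elements. -/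
structure GoodP (p : F[X]) (κ : F) : Prop where
  monic : p.Monic
  irr : Irreducible p
  two : 2 ≤ p.natDegree
  ne0 : κ ≠ 0
  rel : (-1) ^ p.natDegree * p.coeff 0 * κ = 1
  rev : ¬ p ∣ p.reverse

variable {p : F[X]} {κ : F}

theorem fpfW_of_charpoly (hg : GoodP p κ) (D : GL (Fin n) F)
    (hD : (D : Matrix (Fin n) (Fin n) F).charpoly = (X - C κ) * p) :
    ∀ q ∈ QW n F, gHom D * q * (gHom D)⁻¹ = q → q = 1 :=
  fpf_QW D (fun A hA h => alt_fix_zero _ A hD hg.irr hg.two hg.ne0 hg.rev hA h)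

theorem fpfT_of_charpoly (hg : GoodP p κ) (B : GL (Fin n) F)
    (hB : (B : Matrix (Fin n) (Fin n) F).charpoly = (X - C κ) * p) :
    ∀ q ∈ QT n F, gHom B * q * (gHom B)⁻¹ = q → q = 1 := by
  have hT : ((B : Matrix (Fin n) (Fin n) F)ᵀ).charpoly = (X - C κ) * p := by
    rw [Matrix.charpoly_transpose, hB]
  exact fpf_QT B (fun A hA h => alt_fix_zero _ A hT hg.irr hg.two hg.ne0 hg.rev hA (by rwa [transpose_transpose]))

/-- The unipotent groups lie in `Ω`. -/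
theorem QW_le_omega (hg : GoodP p κ) (hm : p.natDegree + 1 = n) :
    QW n F ≤ Cfsg.Omega F (⇑(plusForm n F)) ∧ QT n F ≤ Cfsg.Omega F (⇑(plusForm n F)) := by
  have hm2 : 2 ≤ n := by
    have := hg.two
    omega
  obtain ⟨A, hA1, hA2⟩ := exists_nonscalar (F := F) hm2
  obtain ⟨B, D, G, -, hB, hD, -, -, -⟩ := exists_matrix_factor2 hg.monic hm
    (noRoot_of_irreducible hg.irr hg.two κ) hg.rel A hA1 hA2
  constructor
  · intro q hq
    exact mem_commutator_of_fpf (QW n F) (gHom D) (fun q hq => levi_conj_mem_QW D hq)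
      (fpfW_of_charpoly hg D hD) q hq
  · intro q hq
    exact mem_commutator_of_fpf (QT n F) (gHom B) (fun q hq => levi_conj_mem_QT B hq)
      (fpfT_of_charpoly hg B hB) q hq

theorem omega_conj {g : OP n F} (hg : g ∈ Cfsg.Omega F (⇑(plusForm n F))) (k : OP n F) :
    k * g * k⁻¹ ∈ Cfsg.Omega F (⇑(plusForm n F)) :=
  (inferInstance : (Cfsg.Omega F (⇑(plusForm n F))).Normal).conj_mem g hg k

/-- Squares. -/
theorem isSquare_of_cell (hg : GoodP p κ) (hm : p.natDegree + 1 = n) (h : Fintype.card F ≠ 2 ∨ n ≠ 2) {g : OP n F}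
    (hgΩ : g ∈ Cfsg.Omega F (⇑(plusForm n F))) (D : GL (Fin n) F) (hD : blkD g = (D : Matrix (Fin n) (Fin n) F)) :
    IsSquare (D : Matrix (Fin n) (Fin n) F).det := by
  obtain ⟨hU, hL⟩ := QW_le_omega (n := n) hg hm
  obtain ⟨u, hu, v, hv, huv⟩ := exists_cell g D hD
  have h1 : gHom D ∈ Cfsg.Omega F (⇑(plusForm n F)) := by
    have h3 : gHom D = u⁻¹ * g * v⁻¹ := by
      rw [huv]
      group
    rw [h3]
    exact Subgroup.mul_mem _ (Subgroup.mul_mem _ (Subgroup.inv_mem _ (hL hu)) hgΩ) (Subgroup.inv_mem _ (hU hv))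
  exact (gHom_mem_omega_iff h D).1 h1

/-- **The main case.** -/
theorem ore_main (hg : GoodP p κ) (hm : p.natDegree + 1 = n) (hn : 4 ≤ n) (g : OP n F)
    (hgΩ : g ∈ Cfsg.Omega F (⇑(plusForm n F))) (hsc : ¬ ∃ a : F, ∀ x, act g x = a • x) :
    ∃ a ∈ Cfsg.Omega F (⇑(plusForm n F)), ∃ b ∈ Cfsg.Omega F (⇑(plusForm n F)), g = a * b * a⁻¹ * b⁻¹ := by
  classical
  have hcn : Fintype.card F ≠ 2 ∨ n ≠ 2 := Or.inr (by omega)
  obtain ⟨hU, hL⟩ := QW_le_omega (n := n) hg hm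
  obtain ⟨k, hk⟩ := exists_conj_R_ne (by omega) g hsc
  set g₁ := k⁻¹ * g * k with hg₁
  have hg₁Ω : g₁ ∈ Cfsg.Omega F (⇑(plusForm n F)) := by
    have := omega_conj hgΩ k⁻¹
    rwa [inv_inv] at this
  obtain ⟨h, hh, D, hD, hD1, hD2⟩ := exists_normal (g := g₁) hn hk
    (fun E Cm s hΔ => even_card_of_omega hcn hg₁Ω hΔ)
    (fun h hh D hD => isSquare_of_cell hg hm hcn (omega_conj hg₁Ω h) D hD)
  set g₂ := h * g₁ * h⁻¹ with hg₂
  have hg₂Ω : g₂ ∈ Cfsg.Omega F (⇑(plusForm n F)) := omega_conj hg₁Ω h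
  obtain ⟨u, hu, v, hv, huv⟩ := exists_cell g₂ D hD
  obtain ⟨B, D', G, hfac, hB, hD', hG, hGdet, hBdet⟩ := exists_matrix_factor2 hg.monic hm
    (noRoot_of_irreducible hg.irr hg.two κ) hg.rel D hD1 hD2
  haveI : Finite ↥(QT n F) := inferInstance
  haveI : Finite ↥(QW n F) := inferInstance
  obtain ⟨a, ha, w, hw, hcomm⟩ := exists_comm_of_cell (Cfsg.Omega F (⇑(plusForm n F))) (QT n F) (QW n F) hL hU
    (gHom B) (gHom D') (gHom G) u v
    (fun q hq => levi_conj_mem_QT B hq) (fpfT_of_charpoly hg B hB)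
    (fun q hq => levi_conj_mem_QW D' hq) (fpfW_of_charpoly hg D' hD')
    (by rw [← map_mul, ← map_inv, ← map_mul, hG])
    ((gHom_mem_omega_iff hcn B).2 (by rw [hBdet]; exact IsSquare.one))
    ((gHom_mem_omega_iff hcn G).2 (by rw [hGdet]; exact IsSquare.one)) hu hv
  have hg₂eq : g₂ = a * w * a⁻¹ * w⁻¹ := by
    rw [huv, hfac, map_mul, map_inv, ← hcomm]
    group
  -- transport back
  set c := k * h⁻¹ with hc
  have hgc : g = c * g₂ * c⁻¹ := by
    rw [hg₂, hg₁, hc]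
    group
  refine ⟨c * a * c⁻¹, omega_conj ha c, c * w * c⁻¹, omega_conj hw c, ?_⟩
  rw [hgc, hg₂eq]
  group

/-- The polynomial data exists. -/
theorem exists_goodP (hn : 4 ≤ n) : ∃ (p : F[X]) (κ : F), GoodP p κ ∧ p.natDegree + 1 = n := by
  obtain ⟨p, κ, h1, h3, h4, h6, h7, h8⟩ := exists_good_poly2 (F := F) (n - 1) (by omega)
  exact ⟨p, κ, ⟨h1, h3, by omega, h6, by rw [h4]; exact h7, h8⟩, by omega⟩

end Cfsg.Agent.Lib.OrePlus
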