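import Mathlib
import Cfsg.Agent.Lib.OrePlus.Main
import Cfsg.Agent.Lib.Linalg.Lev.Scalar

/-!
# The element `-1` of `Ω⁺_{2n}(q)` is a commutator
-/

set_option autoImplicit false
set_option linter.unusedSectionVars false
set_option linter.unusedSimpArgs false
set_option linter.unusedVariables false

namespace Cfsg.Agent.Lib.OrePlus

open Matrix QuadraticMap Module
open Cfsg.Agent.Lib.Classical.Orth.Basic
open Cfsg.Agent.Lib.Classical.Orth.Models
open Cfsg.Agent.Lib.Classical.Orth.Spinor
open Cfsg.Agent.Lib.Classical.Orth.Levi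
open Cfsg.Agent.Lib.Classical.Orth.NegPairs
open Cfsg.Agent.Lib.Classical.Orth.Adjust
open Cfsg.Agent.Lib.Classical.Orth.CartanDieudonne
open Cfsg.Agent.Lib.Linalg.Lev (IsComm isComm_smul)

variable {F : Type*} [Field F] [Fintype F] {n : ℕ}

section Even

/-- A matrix from a linear equivalence. -/
noncomputable def toG (e : (Fin n → F) ≃ₗ[F] (Fin n → F)) : GL (Fin n) F where
  val := LinearMap.toMatrix' (e : (Fin n → F) →ₗ[F] (Fin n → F))
  inv := LinearMap.toMatrix' (e.symm : (Fin n → F) →ₗ[F] (Fin n → F))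
  val_inv := by
    rw [← LinearMap.toMatrix'_comp]
    simp
  inv_val := by
    rw [← LinearMap.toMatrix'_comp]
    simp

theorem toG_mulVec (e : (Fin n → F) ≃ₗ[F] (Fin n → F)) (x : Fin n → F) :
    (toG e : Matrix (Fin n) (Fin n) F) *ᵥ x = e x :=
  LinearMap.toMatrix'_mulVec (e : (Fin n → F) →ₗ[F] (Fin n → F)) x

theorem toG_inv_mulVec (e : (Fin n → F) ≃ₗ[F] (Fin n → F)) (x : Fin n → F) :
    (((toG e)⁻¹ : GL (Fin n) F) : Matrix (Fin n) (Fin n) F) *ᵥ x = e.symm x :=
  LinearMap.toMatrix'_mulVec (e.symm : (Fin n → F) →ₗ[F] (Fin n → F)) x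

theorem toG_det (e : (Fin n → F) ≃ₗ[F] (Fin n → F)) :
    (toG e : Matrix (Fin n) (Fin n) F).det = LinearMap.det (e : (Fin n → F) →ₗ[F] (Fin n → F)) :=
  LinearMap.det_toMatrix' _

/-- The case of even `n`. -/
theorem ore_neg_even (hn : 4 ≤ n) (he : Even n) (g : OP n F) (hg : ∀ x, act g x = (-1 : F) • x) :
    ∃ a ∈ Cfsg.Omega F (⇑(plusForm n F)), ∃ b ∈ Cfsg.Omega F (⇑(plusForm n F)), g = a * b * a⁻¹ * b⁻¹ := by
  have hfr : finrank F (Fin n → F) = n := by simp
  have hc : IsComm ((-1 : F) • LinearMap.id : (Fin n → F) →ₗ[F] (Fin n → F)) :=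
    isComm_smul (-1) (by rw [hfr]; omega) (by rw [hfr]; exact he.neg_one_pow)
  obtain ⟨a', b', ha', hb', hab⟩ := hc
  have hcn : Fintype.card F ≠ 2 ∨ n ≠ 2 := Or.inr (by omega)
  refine ⟨gHom (toG a'), (gHom_mem_omega_iff hcn _).2 (by rw [toG_det, ha']; exact IsSquare.one),
    gHom (toG b'), (gHom_mem_omega_iff hcn _).2 (by rw [toG_det, hb']; exact IsSquare.one), ?_⟩
  rw [← map_inv, ← map_inv, ← map_mul, ← map_mul, ← map_mul]
  set T : GL (Fin n) F := toG a' * toG b' * (toG a')⁻¹ * (toG b')⁻¹ with hT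
  have hTx : ∀ x, (T : Matrix (Fin n) (Fin n) F) *ᵥ x = - x := by
    intro x
    have h1 := hab x
    simp only [LinearMap.smul_apply, LinearMap.id_apply, neg_smul, one_smul] at h1
    rw [h1, hT]
    simp only [Units.val_mul]
    rw [← mulVec_mulVec, ← mulVec_mulVec, ← mulVec_mulVec, toG_inv_mulVec, toG_inv_mulVec, toG_mulVec, toG_mulVec]
  have hTm : (T : Matrix (Fin n) (Fin n) F) = -1 := by
    apply Matrix.ext_of_mulVec_single
    intro j
    rw [hTx, neg_mulVec, one_mulVec]
  have hTi : ((T⁻¹ : GL (Fin n) F) : Matrix (Fin n) (Fin n) F) = -1 := by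
    have h3 : ((T⁻¹ : GL (Fin n) F) : Matrix (Fin n) (Fin n) F) * (T : Matrix (Fin n) (Fin n) F) = 1 := inv_E_mul T
    rw [hTm, mul_neg, mul_one] at h3
    rw [← neg_eq_iff_eq_neg]
    exact h3
  apply ext_act
  intro v
  rw [hg, act_levi, hTm, hTi]
  apply vext
  · simp [neg_mulVec]
  · simp [neg_mulVec]

end Even

section Odd

/-- The swap of the coordinates in a set of planes, in `Ω` if the set has even size. -/
theorem exists_swap_list (h2 : (2 : F) ≠ 0) (he1 : IsSquare (-1 : F)) (l : List (Fin n)) (hl : l.Nodup) (he : Even l.length) :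
    ∃ g : OP n F, g ∈ Cfsg.Omega F (⇑(plusForm n F)) ∧ ∀ x : Fin n ⊕ Fin n → F,
      act g x = fun k => if idx k ∈ l then x k.swap else x k := by
  set vs := l.map (fun i : Fin n => (Pi.single (Sum.inl i) 1 - Pi.single (Sum.inr i) 1 : Fin n ⊕ Fin n → F))
    with hvsdef
  have hvs : ∀ v ∈ vs, plusForm n F v ≠ 0 := by
    intro v hv
    obtain ⟨i, -, rfl⟩ := List.mem_map.1 hv
    rw [(plus_isHypPair n i).Q_sub]
    exact neg_ne_zero.2 one_ne_zero
  obtain ⟨g, hg⟩ := exists_iso_of_list (plusForm n F) vs hvs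
  have hlen : vs.length = l.length := by simp [hvsdef]
  refine ⟨g, ?_, fun x => ?_⟩
  · rw [mem_omega_iff_list (plusForm n F) (plusForm_nondegenerate n) h2 vs hvs g hg, hlen]
    refine ⟨he, ?_⟩
    have hprod : (vs.map (fun v => plusForm n F v)).prod = (-1) ^ l.length := by
      have h3 : (vs.map (fun v => plusForm n F v)) = List.replicate l.length (-1 : F) := by
        rw [List.eq_replicate_iff]
        refine ⟨by simp [hvsdef], ?_⟩
        intro b hb
        obtain ⟨v, hv, rfl⟩ := List.mem_map.1 hb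
        obtain ⟨i, -, rfl⟩ := List.mem_map.1 hv
        exact (plus_isHypPair n i).Q_sub
      rw [h3, List.prod_replicate]
    rw [hprod, he.neg_one_pow]
    exact IsSquare.one
  · show ((g : GL (Fin n ⊕ Fin n) F) : Matrix (Fin n ⊕ Fin n) (Fin n ⊕ Fin n) F) *ᵥ x = _
    rw [hg, hvsdef, prod_reflection_swap _ hl]

/-- A diagonal element of the general linear group. -/
noncomputable def dgG (d : Fin n → F) (hd : ∀ j, d j ≠ 0) : GL (Fin n) F where
  val := diagonal d
  inv := diagonal (fun j => (d j)⁻¹)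
  val_inv := by
    rw [diagonal_mul_diagonal]
    simp [hd, diagonal_one]
  inv_val := by
    rw [diagonal_mul_diagonal]
    simp [hd, diagonal_one]

theorem act_dgG (d : Fin n → F) (hd : ∀ j, d j ≠ 0) (v : VP n F) :
    act (gHom (dgG d hd)) v = mkP (fun j => d j * xc v j) (fun j => (d j)⁻¹ * yc v j) := by
  rw [act_levi]
  apply vext
  · ext j
    show (diagonal d *ᵥ xc v) j = d j * xc v j
    rw [mulVec_diagonal]
  · ext j
    show ((diagonal (fun j => (d j)⁻¹))ᵀ *ᵥ yc v) j = (d j)⁻¹ * yc v j
    rw [diagonal_transpose, mulVec_diagonal]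

theorem dgG_det (d : Fin n → F) (hd : ∀ j, d j ≠ 0) :
    (dgG d hd : Matrix (Fin n) (Fin n) F).det = ∏ j, d j := det_diagonal

/-- The case of odd `n`. -/
theorem ore_neg_odd (hn : 4 ≤ n) (ho : Odd n) (h2 : (2 : F) ≠ 0) (i : F) (hi : i ^ 2 = -1) (g : OP n F)
    (hg : ∀ x, act g x = (-1 : F) • x) :
    ∃ a ∈ Cfsg.Omega F (⇑(plusForm n F)), ∃ b ∈ Cfsg.Omega F (⇑(plusForm n F)), g = a * b * a⁻¹ * b⁻¹ := by
  classical
  have hcn : Fintype.card F ≠ 2 ∨ n ≠ 2 := Or.inr (by omega)
  have hi0 : i ≠ 0 := by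
    rintro rfl
    have : (0 : F) = -1 := by simpa using hi
    exact one_ne_zero (by linear_combination this : (1 : F) = 0)
  have hii : i * i = -1 := by rw [← pow_two, hi]
  have hinv : i⁻¹ = - i := inv_eq_of_mul_eq_one_right (by linear_combination -hi)
  have hsq1 : IsSquare (-1 : F) := ⟨i, hii.symm⟩
  have hn1 : (-1 : F) ≠ 0 := neg_ne_zero.2 one_ne_zero
  let i₀ : Fin n := ⟨0, by omega⟩
  let i₁ : Fin n := ⟨1, by omega⟩
  let i₂ : Fin n := ⟨2, by omega⟩
  have h01 : i₀ ≠ i₁ := by simp [i₀, i₁, Fin.ext_iff]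
  have h02 : i₀ ≠ i₂ := by simp [i₀, i₂, Fin.ext_iff]
  have h12 : i₁ ≠ i₂ := by simp [i₁, i₂, Fin.ext_iff]
  -- the lists
  let la : List (Fin n) := [i₁, i₂]
  let lb : List (Fin n) := (List.finRange n).filter (fun j => j ≠ i₂)
  have hla : la.Nodup := by simp [la, h12]
  have hlb : lb.Nodup := (List.nodup_finRange n).filter _
  have hlaL : Even la.length := by simp [la]
  have hlbm : ∀ j, j ∈ lb ↔ j ≠ i₂ := by
    intro j
    simp [lb]
  have hlbL : Even lb.length := by
    have h3 : lb.length = n - 1 := by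
      have h4 : lb.toFinset = Finset.univ.erase i₂ := by
        ext j
        simp [hlbm]
      have h5 := List.toFinset_card_of_nodup hlb
      rw [h4, Finset.card_erase_of_mem (Finset.mem_univ _), Finset.card_univ, Fintype.card_fin] at h5
      exact h5.symm
    rw [h3]
    obtain ⟨m, hm⟩ := ho
    exact ⟨m, by omega⟩
  obtain ⟨sa, hsa, hsaa⟩ := exists_swap_list (F := F) h2 hsq1 la hla hlaL
  obtain ⟨sb, hsb, hsba⟩ := exists_swap_list (F := F) h2 hsq1 lb hlb hlbL
  -- the diagonal parts
  let da : Fin n → F := fun j => if j = i₂ then 1 else i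
  let db : Fin n → F := fun j => if j = i₀ then i else if j = i₁ then -1 else if j = i₂ then i else 1
  have hda : ∀ j, da j ≠ 0 := by
    intro j
    simp only [da]
    split_ifs
    · exact one_ne_zero
    · exact hi0
  have hdb : ∀ j, db j ≠ 0 := by
    intro j
    simp only [db]
    split_ifs
    · exact hi0
    · exact hn1
    · exact hi0
    · exact one_ne_zero
  have hdeta : IsSquare (∏ j, da j) := by
    have h3 : ∀ j, da j = i * (if j = i₂ then i⁻¹ else 1) := by
      intro j
      simp only [da]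
      split_ifs
      · field_simp
      · ring
    rw [Finset.prod_congr rfl (fun j _ => h3 j), Finset.prod_mul_distrib, Finset.prod_const, Finset.prod_ite_eq' ]
    simp only [Finset.mem_univ, if_true, Finset.card_univ, Fintype.card_fin]
    obtain ⟨m, hm⟩ := ho
    refine ⟨i ^ m, ?_⟩
    rw [hm, pow_succ]
    field_simp
    ring
  have hdetb : ∏ j, db j = 1 := by
    have h3 : ∀ j, db j = (if j = i₀ then i else 1) * (if j = i₁ then -1 else 1) * (if j = i₂ then i else 1) := by
      intro j
      simp only [db]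
      by_cases h4 : j = i₀
      · subst h4
        simp [h01, h02]
      · by_cases h5 : j = i₁
        · subst h5
          simp [h01.symm, h12]
        · by_cases h6 : j = i₂
          · subst h6
            simp [h02.symm, h12.symm]
          · simp [h4, h5, h6]
    rw [Finset.prod_congr rfl (fun j _ => h3 j), Finset.prod_mul_distrib, Finset.prod_mul_distrib, Finset.prod_ite_eq',
      Finset.prod_ite_eq', Finset.prod_ite_eq']
    simp only [Finset.mem_univ, if_true]
    linear_combination -hii
  have hAΩ : gHom (dgG da hda) ∈ Cfsg.Omega F (⇑(plusForm n F)) :=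
    (gHom_mem_omega_iff hcn _).2 (by rw [dgG_det]; exact hdeta)
  have hBΩ : gHom (dgG db hdb) ∈ Cfsg.Omega F (⇑(plusForm n F)) :=
    (gHom_mem_omega_iff hcn _).2 (by rw [dgG_det, hdetb]; exact IsSquare.one)
  set a : OP n F := gHom (dgG da hda) * sa with ha
  set b : OP n F := gHom (dgG db hdb) * sb with hb
  have haΩ : a ∈ Cfsg.Omega F (⇑(plusForm n F)) := Subgroup.mul_mem _ hAΩ hsa
  have hbΩ : b ∈ Cfsg.Omega F (⇑(plusForm n F)) := Subgroup.mul_mem _ hBΩ hsb
  refine ⟨a, haΩ, b, hbΩ, ?_⟩
  -- coordinates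
  have hgc : ∀ k, k * g = g * k := by
    intro k
    apply ext_act
    intro v
    rw [act_mul, act_mul, hg, hg, act_smul]
  have hacta : ∀ v, act a v = mkP (fun j => da j * (if j ∈ la then yc v j else xc v j))
      (fun j => (da j)⁻¹ * (if j ∈ la then xc v j else yc v j)) := by
    intro v
    rw [ha, act_mul, act_dgG, hsaa]
    rfl
  have hactb : ∀ v, act b v = mkP (fun j => db j * (if j ∈ lb then yc v j else xc v j))
      (fun j => (db j)⁻¹ * (if j ∈ lb then xc v j else yc v j)) := by
    intro v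
    rw [hb, act_mul, act_dgG, hsba]
    rfl
  have hma : ∀ j, j ∈ la ↔ (j = i₁ ∨ j = i₂) := by
    intro j
    simp [la]
  have hinvm : ((-1 : F))⁻¹ = -1 := by simp
  have hmain : a * b = g * (b * a) := by
    apply ext_act
    intro v
    have e1 : act (a * b) v = act a (act b v) := act_mul _ _ _
    have e2 : act (g * (b * a)) v = (-1 : F) • act b (act a v) := by
      have e3 : act (b * a) v = act b (act a v) := act_mul _ _ _
      rw [act_mul g, hg, e3]
    rw [e1, e2, hacta (act b v), hactb v, hactb (act a v), hacta v]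
    set x := xc v
    set y := yc v
    have key : ∀ j, (da j * (if j ∈ la then (db j)⁻¹ * (if j ∈ lb then x j else y j) else db j * (if j ∈ lb then y j else x j)) =
          - (db j * (if j ∈ lb then (da j)⁻¹ * (if j ∈ la then x j else y j) else da j * (if j ∈ la then y j else x j)))) ∧
        ((da j)⁻¹ * (if j ∈ la then db j * (if j ∈ lb then y j else x j) else (db j)⁻¹ * (if j ∈ lb then x j else y j)) =
          - ((db j)⁻¹ * (if j ∈ lb then da j * (if j ∈ la then y j else x j) else (da j)⁻¹ * (if j ∈ la then x j else y j)))) := by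
      intro j
      by_cases h0 : j = i₀
      · subst h0
        have a1 : i₀ ∉ la := by simp [hma, h01, h02]
        have b1 : i₀ ∈ lb := by simp [hlbm, h02]
        have d1 : da i₀ = i := by simp [da, h02]
        have d2 : db i₀ = i := by simp [db]
        rw [d1, d2, hinv]
        simp only [a1, b1, if_true, if_false]
        constructor <;> ring
      by_cases h1 : j = i₁
      · subst h1
        have a1 : i₁ ∈ la := by simp [hma]
        have b1 : i₁ ∈ lb := by simp [hlbm, h12]
        have d1 : da i₁ = i := by simp [da, h12]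
        have d2 : db i₁ = -1 := by simp [db, h01.symm]
        rw [d1, d2, hinv, hinvm]
        simp only [a1, b1, if_true, if_false]
        constructor <;> ring
      by_cases h3 : j = i₂
      · subst h3
        have a1 : i₂ ∈ la := by simp [hma]
        have b1 : i₂ ∉ lb := by simp [hlbm]
        have d1 : da i₂ = 1 := by simp [da]
        have d2 : db i₂ = i := by simp [db, h02.symm, h12.symm]
        rw [d1, d2, hinv, inv_one]
        simp only [a1, b1, if_true, if_false]
        constructor <;> ring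
      · have a1 : j ∉ la := by simp [hma, h1, h3]
        have b1 : j ∈ lb := by simp [hlbm, h3]
        have d1 : da j = i := by simp [da, h3]
        have d2 : db j = 1 := by simp [db, h0, h1, h3]
        rw [d1, d2, hinv, inv_one]
        simp only [a1, b1, if_true, if_false]
        constructor <;> ring
    apply vext
    · ext j
      simpa using (key j).1
    · ext j
      simpa using (key j).2
  refine ?_
  rw [hmain]
  group

end Odd

open Cfsg.Agent.Lib.Classical.Orth.Center in
/-- **Every element of `Ω⁺_{2n}(F)` is a commutator.** -/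
theorem ore_omega_plus (hn : 4 ≤ n) (g : OP n F) (hgΩ : g ∈ Cfsg.Omega F (⇑(plusForm n F))) :
    ∃ a ∈ Cfsg.Omega F (⇑(plusForm n F)), ∃ b ∈ Cfsg.Omega F (⇑(plusForm n F)), g = a * b * a⁻¹ * b⁻¹ := by
  classical
  have hcn : Fintype.card F ≠ 2 ∨ n ≠ 2 := Or.inr (by omega)
  by_cases hsc : ∃ a : F, ∀ x, act g x = a • x
  · obtain ⟨a, ha⟩ := hsc
    have hnd := plusForm_nondegenerate (F := F) n
    have hne : Nonempty (IP n) := ⟨Sum.inl ⟨0, by omega⟩⟩
    have htriv : (∀ x, act g x = x) → ∃ a ∈ Cfsg.Omega F (⇑(plusForm n F)), ∃ b ∈ Cfsg.Omega F (⇑(plusForm n F)), g = a * b * a⁻¹ * b⁻¹ := by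
      intro h1
      have hg1 : g = 1 := by
        apply ext_act
        intro v
        rw [h1, act_one]
      refine ⟨1, Subgroup.one_mem _, 1, Subgroup.one_mem _, ?_⟩
      rw [hg1]
      group
    rcases scalar_eq_one_or_neg hnd hne ha with h1 | h1
    · exact htriv (fun x => by rw [ha, h1, one_smul])
    · subst h1
      by_cases he : Even n
      · exact ore_neg_even hn he g ha
      · have ho : Odd n := Nat.not_even_iff_odd.1 he
        by_cases h11 : (-1 : F) = 1
        · exact htriv (fun x => by rw [ha, h11, one_smul])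
        have h2 : (2 : F) ≠ 0 := by
          intro h0
          apply h11
          linear_combination -h0 + (1 : F) * 0
        have hd : ∀ j : Fin n, (fun _ : Fin n => (-1 : F)) j ≠ 0 := fun _ => neg_ne_zero.2 one_ne_zero
        have hgM : g = gHom (dgG (fun _ : Fin n => (-1 : F)) hd) := by
          apply ext_act
          intro v
          rw [ha, act_dgG]
          apply vext
          · ext j
            simp
          · ext j
            simp
        have h3 : IsSquare (-1 : F) := by
          have h4 := (gHom_mem_omega_iff hcn (dgG (fun _ : Fin n => (-1 : F)) hd)).1 (hgM ▸ hgΩ)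
          rw [dgG_det] at h4
          simpa [ho.neg_one_pow] using h4
        obtain ⟨i, hi⟩ := h3
        exact ore_neg_odd hn ho h2 i (by rw [hi]; ring) g ha
  · obtain ⟨p, κ, hp, hm⟩ := exists_goodP (F := F) hn
    exact ore_main hp hm hn g hgΩ hsc

end Cfsg.Agent.Lib.OrePlus
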